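import Mathlib
import Cfsg.Prelude.Def_Local
import Cfsg.Prelude.Def_CaseTheorems
import Cfsg.Agent.Lib.Helper33.Sect2
import Cfsg.Agent.Lib.Helper47.Basic
import Cfsg.Agent.Lib.Helper22.PComp

/-!
Centric-radical subgroups and `O_{p',p}(N_G(H))` (helper51).
-/

set_option autoImplicit false

universe u

namespace Cfsg.Agent.Lib.Helper51

open Cfsg Cfsg.Agent.Lib.Helper33

section pre

variable {Y : Type u} [Group Y] {p : ℕ}

theorem pcorePre_normal (K : Subgroup Y) [K.Normal] :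
    ((Cfsg.pCore p (Y ⧸ K)).comap (QuotientGroup.mk' K)).Normal :=
  (Cfsg.pCore_normal p _).comap _

theorem le_pcorePre (K : Subgroup Y) [K.Normal] :
    K ≤ (Cfsg.pCore p (Y ⧸ K)).comap (QuotientGroup.mk' K) := by
  intro x hx
  rw [Subgroup.mem_comap]
  have h1 : (QuotientGroup.mk' K) x = 1 := (QuotientGroup.eq_one_iff x).mpr hx
  rw [h1]; exact Subgroup.one_mem _

theorem pcorePre_pow [Fact p.Prime] (K : Subgroup Y) [K.Normal] {n : Y}
    (hn : n ∈ (Cfsg.pCore p (Y ⧸ K)).comap (QuotientGroup.mk' K)) :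
    ∃ k : ℕ, n ^ (p ^ k) ∈ K := by
  rw [Subgroup.mem_comap] at hn
  obtain ⟨k, hk⟩ := Cfsg.Agent.Lib.Helper47.pCore_isPGroup p (Y ⧸ K) ⟨_, hn⟩
  refine ⟨k, ?_⟩
  have h2 : ((QuotientGroup.mk' K) n) ^ (p ^ k) = 1 := by simpa [Subtype.ext_iff] using hk
  rw [← map_pow] at h2
  exact (QuotientGroup.eq_one_iff _).mp h2

theorem le_pcorePre_of_pow (K : Subgroup Y) [K.Normal] (L : Subgroup Y) [L.Normal]
    (h : ∀ l ∈ L, ∃ k : ℕ, l ^ (p ^ k) ∈ K) :
    L ≤ (Cfsg.pCore p (Y ⧸ K)).comap (QuotientGroup.mk' K) := by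
  have hn : (L.map (QuotientGroup.mk' K)).Normal :=
    Subgroup.Normal.map inferInstance _ (QuotientGroup.mk'_surjective K)
  have hp : IsPGroup p (L.map (QuotientGroup.mk' K)) := by
    rintro ⟨q, l, hl, rfl⟩
    obtain ⟨k, hk⟩ := h l hl
    refine ⟨k, ?_⟩
    apply Subtype.ext
    show ((QuotientGroup.mk' K) l) ^ (p ^ k) = 1
    rw [← map_pow]
    exact (QuotientGroup.eq_one_iff _).mpr hk
  rw [← Subgroup.map_le_iff_le_comap]
  exact Cfsg.Agent.Lib.Helper47.le_pCore hn hp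

end pre

/-- Burnside's transfer theorem, in the form needed: if `C` has a central Sylow `p`-subgroup
`Z`, then `C / O_{p'}(C)` is a `p`-group. -/
theorem pow_mem_pPrimeCore_of_central_sylow {X : Type u} [Group X] [Finite X] {p : ℕ}
    [Fact p.Prime] (C Z : Subgroup X) (hZp : IsPGroup p Z) (hZ : ¬ p ∣ Z.relIndex C)
    (hcent : ∀ z ∈ Z, ∀ c ∈ C, z * c = c * z) :
    ∀ c ∈ C, ∃ k : ℕ, c ^ (p ^ k) ∈ (Cfsg.pPrimeCore p ↥C).map C.subtype := by
  have hp : p.Prime := Fact.out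
  have hZ0 : IsPGroup p (Z.subgroupOf C) := hZp.comap_subtype
  let P₀ : Sylow p ↥C := hZ0.toSylow hZ
  have hP₀ : (P₀ : Subgroup ↥C) = Z.subgroupOf C := IsPGroup.toSylow_coe hZ0 hZ
  have hPc : Subgroup.normalizer ((P₀ : Subgroup ↥C) : Set ↥C) ≤
      Subgroup.centralizer ((P₀ : Subgroup ↥C) : Set ↥C) := by
    intro x _
    rw [Subgroup.mem_centralizer_iff]
    intro z hz
    rw [SetLike.mem_coe, hP₀, Subgroup.mem_subgroupOf] at hz
    apply Subtype.ext
    exact hcent _ hz _ x.2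
  have hcompl := MonoidHom.ker_transferSylow_isComplement' P₀ hPc
  have hKn : (MonoidHom.transferSylow P₀ hPc).ker.Normal := inferInstance
  have hKcop : (Nat.card (MonoidHom.transferSylow P₀ hPc).ker).Coprime p := by
    rw [← hcompl.index_eq_card]
    exact ((Nat.Prime.coprime_iff_not_dvd hp).2 P₀.not_dvd_index).symm
  have hKidx : (MonoidHom.transferSylow P₀ hPc).ker.index = Nat.card (P₀ : Subgroup ↥C) :=
    hcompl.symm.index_eq_card
  obtain ⟨n, hn⟩ := IsPGroup.iff_card.1 P₀.2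
  intro c hc
  refine ⟨n, ?_⟩
  have h3 : (⟨c, hc⟩ : ↥C) ^ (p ^ n) ∈ (MonoidHom.transferSylow P₀ hPc).ker := by
    rw [← hn, ← hKidx]; exact Subgroup.pow_index_mem _ _
  have h4 := Cfsg.Agent.Lib.Helper22.le_pPrimeCore_of_normal p hKn hKcop h3
  exact ⟨_, h4, rfl⟩

/-- The abstract form: `H` a normal `p`-subgroup of `X`, `C = C_X(H)`, `S` a Sylow
`p`-subgroup containing `H`. -/
theorem centrad_abstract {X : Type u} [Group X] [Finite X] {p : ℕ} [Fact p.Prime]
    (H C S : Subgroup X) [hHn : H.Normal] [hCn : C.Normal]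
    (hHp : IsPGroup p H)
    (hC1 : ∀ c ∈ C, ∀ h ∈ H, h * c = c * h)
    (hC2 : ∀ c : X, (∀ h ∈ H, h * c = c * h) → c ∈ C)
    (hS : SylIn p S ⊤) (hHS : H ≤ S) :
    (H ≤ (Cfsg.pCore p (X ⧸ C)).comap (QuotientGroup.mk' C) ∧
      ¬ p ∣ H.relIndex ((Cfsg.pCore p (X ⧸ C)).comap (QuotientGroup.mk' C))) ↔
    (S ⊓ C ≤ H ∧ Cfsg.pPrimePCore p X = H ⊔ C) := by
  classical
  have hN₀n : ((Cfsg.pCore p (X ⧸ C)).comap (QuotientGroup.mk' C)).Normal := pcorePre_normal C
  have hCN₀ : C ≤ (Cfsg.pCore p (X ⧸ C)).comap (QuotientGroup.mk' C) := le_pcorePre C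
  have hWn : (Cfsg.pPrimeCore p X).Normal := inferInstance
  have hMdef : Cfsg.pPrimePCore p X =
      (Cfsg.pCore p (X ⧸ Cfsg.pPrimeCore p X)).comap
        (QuotientGroup.mk' (Cfsg.pPrimeCore p X)) := rfl
  have hHpow : ∀ (K : Subgroup X), ∀ h ∈ H, ∃ k : ℕ, h ^ (p ^ k) ∈ K := by
    intro K h hh
    obtain ⟨k, hk⟩ := hHp ⟨h, hh⟩
    refine ⟨k, ?_⟩
    have : h ^ (p ^ k) = 1 := by simpa [Subtype.ext_iff] using hk
    rw [this]; exact K.one_mem
  have hHN₀ : H ≤ (Cfsg.pCore p (X ⧸ C)).comap (QuotientGroup.mk' C) :=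
    le_pcorePre_of_pow C H (hHpow C)
  have hHM : H ≤ Cfsg.pPrimePCore p X := by
    rw [hMdef]; exact le_pcorePre_of_pow _ H (hHpow _)
  have hWC : Cfsg.pPrimeCore p X ≤ C := by
    intro w hw
    apply hC2
    intro h hh
    have hbot : H ⊓ Cfsg.pPrimeCore p X = ⊥ :=
      inf_eq_bot_of_pgroup_coprime hHp (Cfsg.Agent.Lib.Helper22.card_pPrimeCore_coprime p X)
    have hmem : h * w * h⁻¹ * w⁻¹ ∈ H ⊓ Cfsg.pPrimeCore p X := by
      refine Subgroup.mem_inf.2 ⟨?_, ?_⟩
      · have h1 : w * h⁻¹ * w⁻¹ ∈ H := hHn.conj_mem _ (inv_mem hh) w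
        have h2 : h * w * h⁻¹ * w⁻¹ = h * (w * h⁻¹ * w⁻¹) := by group
        rw [h2]; exact mul_mem hh h1
      · have h1 : h * w * h⁻¹ ∈ Cfsg.pPrimeCore p X := hWn.conj_mem _ hw h
        exact mul_mem h1 (inv_mem hw)
    rw [hbot, Subgroup.mem_bot] at hmem
    calc h * w = (h * w * h⁻¹ * w⁻¹) * (w * h) := by group
      _ = w * h := by rw [hmem, one_mul]
  have hMpow : ∀ m ∈ Cfsg.pPrimePCore p X, ∃ k : ℕ, m ^ (p ^ k) ∈ Cfsg.pPrimeCore p X := by
    intro m hm
    rw [hMdef] at hm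
    exact pcorePre_pow _ hm
  have hMn : (Cfsg.pPrimePCore p X).Normal := by rw [hMdef]; exact pcorePre_normal _
  have hMN₀ : Cfsg.pPrimePCore p X ≤ (Cfsg.pCore p (X ⧸ C)).comap (QuotientGroup.mk' C) := by
    apply le_pcorePre_of_pow C _
    intro m hm
    obtain ⟨k, hk⟩ := hMpow m hm
    exact ⟨k, hWC hk⟩
  have hidx : H.relIndex (H ⊔ C) = (H ⊓ C).relIndex C := by
    rw [Subgroup.relIndex_sup_left, Subgroup.inf_relIndex_right]
  have hcjC : ∀ n : X, cj n C = C := fun n =>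
    mem_normalizer_iff_cj.1 (by rw [Subgroup.normalizer_eq_top]; trivial)
  have hSC : SylIn p (S ⊓ C) C := hS.inf_normal le_top (fun n _ => hcjC n)
  constructor
  · rintro ⟨-, hnd⟩
    have hSyl : SylIn p H ((Cfsg.pCore p (X ⧸ C)).comap (QuotientGroup.mk' C)) :=
      ⟨hHN₀, hHp, hnd⟩
    have h1 : S ⊓ (Cfsg.pCore p (X ⧸ C)).comap (QuotientGroup.mk' C) = H :=
      hSyl.eq_of_le inf_le_right (hS.2.1.to_le inf_le_left) (le_inf hHS hHN₀)
    have hN₀eq : (Cfsg.pCore p (X ⧸ C)).comap (QuotientGroup.mk' C) = H ⊔ C := by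
      apply le_antisymm _ (sup_le hHN₀ hCN₀)
      intro x hx
      obtain ⟨t, ht, c, hc, rfl⟩ := exists_mul_of_pquotient hSyl (fun n _ => hcjC n)
        (fun x hx => pcorePre_pow C hx) x hx
      exact mul_mem (Subgroup.mem_sup_left ht) (Subgroup.mem_sup_right hc)
    refine ⟨fun x hx => ?_, ?_⟩
    · rw [← h1]; exact ⟨hx.1, hCN₀ hx.2⟩
    · have hZ : ¬ p ∣ (H ⊓ C).relIndex C := by rw [← hidx, ← hN₀eq]; exact hnd
      have hCpow : ∀ c ∈ C, ∃ k : ℕ, c ^ (p ^ k) ∈ Cfsg.pPrimeCore p X := by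
        intro c hc
        obtain ⟨k, hk⟩ := pow_mem_pPrimeCore_of_central_sylow C (H ⊓ C)
          (hHp.to_le inf_le_left) hZ (fun z hz c hc => hC1 c hc z hz.1) c hc
        exact ⟨k, Cfsg.Agent.Lib.Helper22.pPrimeCore_map_subtype_le_of_normal p C hk⟩
      have hCM : C ≤ Cfsg.pPrimePCore p X := by
        rw [hMdef]; exact le_pcorePre_of_pow _ C hCpow
      apply le_antisymm
      · rw [← hN₀eq]; exact hMN₀
      · exact sup_le hHM hCM
  · rintro ⟨h1, h2⟩
    have hCpow : ∀ c ∈ C, ∃ k : ℕ, c ^ (p ^ k) ∈ Cfsg.pPrimeCore p X := fun c hc =>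
      hMpow c (h2 ▸ Subgroup.mem_sup_right hc)
    have hN₀M : (Cfsg.pCore p (X ⧸ C)).comap (QuotientGroup.mk' C) ≤ Cfsg.pPrimePCore p X := by
      rw [hMdef]
      apply le_pcorePre_of_pow _ _
      intro n hn
      obtain ⟨k1, hk1⟩ := pcorePre_pow C hn
      obtain ⟨k2, hk2⟩ := hCpow _ hk1
      exact ⟨k1 + k2, by rw [pow_add, pow_mul]; exact hk2⟩
    have hN₀eq : (Cfsg.pCore p (X ⧸ C)).comap (QuotientGroup.mk' C) = H ⊔ C :=
      le_antisymm (h2 ▸ hN₀M) (sup_le hHN₀ hCN₀)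
    refine ⟨hHN₀, ?_⟩
    rw [hN₀eq, hidx]
    have : H ⊓ C = S ⊓ C := le_antisymm (inf_le_inf_right _ hHS) (le_inf h1 inf_le_right)
    rw [this]; exact hSC.2.2

theorem sylow_in_p_core_preimage_iff_centric_radical {G : Type u} [Group G] [Finite G] {p : ℕ}
    [Fact p.Prime]
    (P : Sylow p G) (H : Subgroup G) (hHP : H ≤ (P : Subgroup G))
    (hSyl : ¬ p ∣ ((P : Subgroup G) ⊓ Subgroup.normalizer (H : Set G)).relIndex (Subgroup.normalizer (H : Set G)))
    [hC : ((Subgroup.centralizer (H : Set G)).subgroupOf (Subgroup.normalizer (H : Set G))).Normal] :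
    (H ≤ ((Cfsg.pCore p (↥(Subgroup.normalizer (H : Set G)) ⧸
              (Subgroup.centralizer (H : Set G)).subgroupOf (Subgroup.normalizer (H : Set G)))).comap
            (QuotientGroup.mk' _)).map (Subgroup.normalizer (H : Set G)).subtype ∧
      ¬ p ∣ H.relIndex (((Cfsg.pCore p (↥(Subgroup.normalizer (H : Set G)) ⧸
              (Subgroup.centralizer (H : Set G)).subgroupOf (Subgroup.normalizer (H : Set G)))).comap
            (QuotientGroup.mk' _)).map (Subgroup.normalizer (H : Set G)).subtype)) ↔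
    ((P : Subgroup G) ⊓ Subgroup.centralizer (H : Set G) ≤ H ∧
      (Cfsg.pPrimePCore p ↥(Subgroup.normalizer (H : Set G))).map (Subgroup.normalizer (H : Set G)).subtype =
        H ⊔ Subgroup.centralizer (H : Set G)) := by
  have hHN : H ≤ Subgroup.normalizer (H : Set G) := Subgroup.le_normalizer
  have hCN : Subgroup.centralizer (H : Set G) ≤ Subgroup.normalizer (H : Set G) :=
    Subgroup.centralizer_le_normalizer _
  have hH₀n : (H.subgroupOf (Subgroup.normalizer (H : Set G))).Normal :=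
    Subgroup.normal_in_normalizer
  have hH₀p : IsPGroup p (H.subgroupOf (Subgroup.normalizer (H : Set G))) :=
    (P.2.to_le hHP).comap_subtype
  have hS₀ : SylIn p ((P : Subgroup G).subgroupOf (Subgroup.normalizer (H : Set G))) ⊤ := by
    refine ⟨le_top, P.2.comap_subtype, ?_⟩
    rw [Subgroup.relIndex_top_right]
    rw [Subgroup.inf_relIndex_right] at hSyl
    exact hSyl
  have hHS₀ : H.subgroupOf (Subgroup.normalizer (H : Set G)) ≤
      (P : Subgroup G).subgroupOf (Subgroup.normalizer (H : Set G)) := fun x hx =>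
    Subgroup.mem_subgroupOf.2 (hHP (Subgroup.mem_subgroupOf.1 hx))
  have hC1 : ∀ c ∈ (Subgroup.centralizer (H : Set G)).subgroupOf (Subgroup.normalizer (H : Set G)),
      ∀ h ∈ H.subgroupOf (Subgroup.normalizer (H : Set G)), h * c = c * h := by
    intro c hc h hh
    rw [Subgroup.mem_subgroupOf] at hc hh
    apply Subtype.ext
    exact Subgroup.mem_centralizer_iff.1 hc _ hh
  have hC2 : ∀ c : ↥(Subgroup.normalizer (H : Set G)),
      (∀ h ∈ H.subgroupOf (Subgroup.normalizer (H : Set G)), h * c = c * h) →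
      c ∈ (Subgroup.centralizer (H : Set G)).subgroupOf (Subgroup.normalizer (H : Set G)) := by
    intro c hc
    rw [Subgroup.mem_subgroupOf, Subgroup.mem_centralizer_iff]
    intro h hh
    have := hc ⟨h, hHN hh⟩ (Subgroup.mem_subgroupOf.2 hh)
    exact congrArg Subtype.val this
  have key := centrad_abstract (H.subgroupOf (Subgroup.normalizer (H : Set G)))
    ((Subgroup.centralizer (H : Set G)).subgroupOf (Subgroup.normalizer (H : Set G)))
    ((P : Subgroup G).subgroupOf (Subgroup.normalizer (H : Set G))) hH₀p hC1 hC2 hS₀ hHS₀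
  have ba : ∀ N₀ : Subgroup ↥(Subgroup.normalizer (H : Set G)),
      (H ≤ N₀.map (Subgroup.normalizer (H : Set G)).subtype ↔
        H.subgroupOf (Subgroup.normalizer (H : Set G)) ≤ N₀) := by
    intro N₀
    constructor
    · intro h x hx
      obtain ⟨y, hy, hxy⟩ := h (Subgroup.mem_subgroupOf.1 hx)
      have : y = x := Subtype.ext hxy
      rw [← this]; exact hy
    · intro h x hx
      exact ⟨⟨x, hHN hx⟩, h (Subgroup.mem_subgroupOf.2 hx), rfl⟩
  have bb : ∀ N₀ : Subgroup ↥(Subgroup.normalizer (H : Set G)),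
      H.relIndex (N₀.map (Subgroup.normalizer (H : Set G)).subtype) =
        (H.subgroupOf (Subgroup.normalizer (H : Set G))).relIndex N₀ := by
    intro N₀
    have h1 := Subgroup.relIndex_map_map_of_injective
      (H.subgroupOf (Subgroup.normalizer (H : Set G))) N₀
      (Subgroup.normalizer (H : Set G)).subtype_injective
    rw [Subgroup.map_subgroupOf_eq_of_le hHN] at h1
    exact h1
  have bc : ((P : Subgroup G) ⊓ Subgroup.centralizer (H : Set G) ≤ H ↔
      (P : Subgroup G).subgroupOf (Subgroup.normalizer (H : Set G)) ⊓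
        (Subgroup.centralizer (H : Set G)).subgroupOf (Subgroup.normalizer (H : Set G)) ≤
        H.subgroupOf (Subgroup.normalizer (H : Set G))) := by
    constructor
    · intro h x hx
      rw [Subgroup.mem_inf, Subgroup.mem_subgroupOf, Subgroup.mem_subgroupOf] at hx
      exact Subgroup.mem_subgroupOf.2 (h (Subgroup.mem_inf.2 hx))
    · intro h x hx
      rw [Subgroup.mem_inf] at hx
      have := @h ⟨x, hCN hx.2⟩ (Subgroup.mem_inf.2
        ⟨Subgroup.mem_subgroupOf.2 hx.1, Subgroup.mem_subgroupOf.2 hx.2⟩)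
      exact Subgroup.mem_subgroupOf.1 this
  have bd : ((Cfsg.pPrimePCore p ↥(Subgroup.normalizer (H : Set G))).map
        (Subgroup.normalizer (H : Set G)).subtype = H ⊔ Subgroup.centralizer (H : Set G) ↔
      Cfsg.pPrimePCore p ↥(Subgroup.normalizer (H : Set G)) =
        H.subgroupOf (Subgroup.normalizer (H : Set G)) ⊔
        (Subgroup.centralizer (H : Set G)).subgroupOf (Subgroup.normalizer (H : Set G))) := by
    rw [← Subgroup.subgroupOf_sup hHN hCN]
    have h1 := Subgroup.map_subgroupOf_eq_of_le (sup_le hHN hCN)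
    constructor
    · intro h
      rw [← h1] at h
      exact Subgroup.map_injective (Subgroup.normalizer (H : Set G)).subtype_injective h
    · intro h
      rw [h, h1]
  rw [ba, bb, bc, bd]
  exact key

end Cfsg.Agent.Lib.Helper51
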