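import Mathlib
import Cfsg.Prelude.Def_ConjugacyFunctors
import Cfsg.Agent.Lib.Helper33.FamFusion
import Cfsg.Agent.Lib.Helper33.Sect2
import Cfsg.Agent.Lib.Helper33.Sect4
import Cfsg.Agent.Lib.Helper51.SCFusion

/-!
# Control of strong fusion by a subgroup: Alperin induction, stable automorphisms
-/

set_option autoImplicit false

namespace Cfsg.Agent.Lib.Helper51

open Cfsg Cfsg.Agent.Lib.Helper33

variable {G : Type*} [Group G]

/-- The relation of Alperin's induction for control by a subgroup `N`. -/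
def NR (N : Subgroup G) (A : Set G) (g : G) : Prop :=
  ∃ x ∈ N, ∀ a ∈ A, x * a * x⁻¹ = g⁻¹ * a * g

theorem NR.mono {N : Subgroup G} {A B : Set G} {g : G} (hBA : B ⊆ A) (h : NR N A g) :
    NR N B g := by
  obtain ⟨x, hx, e⟩ := h
  exact ⟨x, hx, fun a ha => e a (hBA ha)⟩

/-- If `H` normalises `K`, every element of `H ⊔ K` is a product. -/
theorem exists_mul_of_mem_sup {H K : Subgroup G}
    (h : H ≤ Subgroup.normalizer (K : Set G)) {x : G} (hx : x ∈ H ⊔ K) :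
    ∃ a ∈ H, ∃ b ∈ K, x = a * b := by
  let L : Subgroup G :=
    { carrier := {x | ∃ a ∈ H, ∃ b ∈ K, x = a * b}
      mul_mem' := by
        rintro _ _ ⟨a₁, ha₁, b₁, hb₁, rfl⟩ ⟨a₂, ha₂, b₂, hb₂, rfl⟩
        refine ⟨a₁ * a₂, mul_mem ha₁ ha₂, a₂⁻¹ * b₁ * a₂ * b₂, mul_mem ?_ hb₂, by group⟩
        have := (Subgroup.mem_normalizer_iff.1 (h (inv_mem ha₂)) b₁).1 hb₁
        rwa [inv_inv] at this
      one_mem' := ⟨1, one_mem H, 1, one_mem K, by group⟩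
      inv_mem' := by
        rintro _ ⟨a, ha, b, hb, rfl⟩
        refine ⟨a⁻¹, inv_mem ha, a * b⁻¹ * a⁻¹, ?_, by group⟩
        exact (Subgroup.mem_normalizer_iff.1 (h ha) b⁻¹).1 (inv_mem hb) }
  have hle : H ⊔ K ≤ L := by
    refine sup_le ?_ ?_
    · intro a ha; exact ⟨a, ha, 1, one_mem K, by group⟩
    · intro b hb; exact ⟨1, one_mem H, b, hb, by group⟩
  exact hle hx

section alperin

variable [Finite G] {p : ℕ} [Fact p.Prime]

/-- Alperin's induction for control of strong fusion by a subgroup `N`. -/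
theorem sctl_of_alperin {S N : Subgroup G} (hS : SylIn p S ⊤)
    (hloc : ∀ U : Subgroup G, U ≤ S →
      SylIn p (S ⊓ Subgroup.normalizer (U : Set G)) (Subgroup.normalizer (U : Set G)) →
      (∀ A' : Subgroup G, A' ≤ S → Nat.card U < Nat.card A' → ∀ g, cj g⁻¹ A' ≤ S →
        NR N (A' : Set G) g) →
      ∀ m ∈ Subgroup.normalizer (U : Set G), NR N (U : Set G) m) :
    SCtl N S := by
  intro A h hA hhA
  have hcl : Subgroup.closure A ≤ S := (Subgroup.closure_le _).2 hA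
  have hcl' : cj h⁻¹⁻¹ (Subgroup.closure A) ≤ S := by
    rw [inv_inv, cj_closure, Subgroup.closure_le]
    exact hhA
  have key := alperin_induction hS
    (fun A g => NR N (A : Set G) g)
    (by
      rintro A g h ⟨x₁, hx₁, e1⟩ ⟨x₂, hx₂, e2⟩
      refine ⟨x₂ * x₁, mul_mem hx₂ hx₁, fun a ha => ?_⟩
      have hb : g⁻¹ * a * g ∈ cj g⁻¹ A := by
        have := conj_mem_cj (g := g⁻¹) ha
        rwa [inv_inv] at this
      calc x₂ * x₁ * a * (x₂ * x₁)⁻¹ = x₂ * (x₁ * a * x₁⁻¹) * x₂⁻¹ := by group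
        _ = x₂ * (g⁻¹ * a * g) * x₂⁻¹ := by rw [e1 a ha]
        _ = h⁻¹ * (g⁻¹ * a * g) * h := e2 _ hb
        _ = (g * h)⁻¹ * a * (g * h) := by group)
    (fun A B g hBA h => h.mono hBA)
    (by
      rintro A g ⟨x, hx, e⟩
      refine ⟨x⁻¹, inv_mem hx, fun b hb => ?_⟩
      have hb' : g * b * g⁻¹ ∈ A := by
        have := mem_cj.1 hb
        rwa [inv_inv] at this
      have := e _ hb'
      calc x⁻¹ * b * x⁻¹⁻¹ = x⁻¹ * (g⁻¹ * (g * b * g⁻¹) * g) * x := by group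
        _ = x⁻¹ * (x * (g * b * g⁻¹) * x⁻¹) * x := by rw [this]
        _ = g⁻¹⁻¹ * b * g⁻¹ := by group)
    hloc (Subgroup.closure A) hcl h⁻¹ hcl'
  obtain ⟨c, hc, ec⟩ := key
  refine ⟨c, hc, fun a ha => ?_⟩
  rw [ec a (Subgroup.subset_closure ha), inv_inv]

end alperin

/-- The elements of `N(U)` acting on `U` like an element of `B`. -/
def actSub (U B : Subgroup G) (hB : B ≤ Subgroup.normalizer (U : Set G)) : Subgroup G where
  carrier := {g | g ∈ Subgroup.normalizer (U : Set G) ∧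
    ∃ b ∈ B, ∀ u ∈ U, g * u * g⁻¹ = b * u * b⁻¹}
  mul_mem' := by
    rintro g₁ g₂ ⟨hg₁, b₁, hb₁, e₁⟩ ⟨hg₂, b₂, hb₂, e₂⟩
    refine ⟨mul_mem hg₁ hg₂, b₁ * b₂, mul_mem hb₁ hb₂, fun u hu => ?_⟩
    have hu' : b₂ * u * b₂⁻¹ ∈ U := (Subgroup.mem_normalizer_iff.1 (hB hb₂) u).1 hu
    calc g₁ * g₂ * u * (g₁ * g₂)⁻¹ = g₁ * (g₂ * u * g₂⁻¹) * g₁⁻¹ := by group
      _ = g₁ * (b₂ * u * b₂⁻¹) * g₁⁻¹ := by rw [e₂ u hu]
      _ = b₁ * (b₂ * u * b₂⁻¹) * b₁⁻¹ := e₁ _ hu'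
      _ = b₁ * b₂ * u * (b₁ * b₂)⁻¹ := by group
  one_mem' := ⟨one_mem _, 1, one_mem B, fun u _ => rfl⟩
  inv_mem' := by
    rintro g ⟨hg, b, hb, e⟩
    refine ⟨inv_mem hg, b⁻¹, inv_mem hb, fun u hu => ?_⟩
    have hu' : b⁻¹ * u * b ∈ U := by
      have := (Subgroup.mem_normalizer_iff.1 (hB (inv_mem hb)) u).1 hu
      rwa [inv_inv] at this
    have := e _ hu'
    calc g⁻¹ * u * g⁻¹⁻¹ = g⁻¹ * (b * (b⁻¹ * u * b) * b⁻¹) * g := by group
      _ = g⁻¹ * (g * (b⁻¹ * u * b) * g⁻¹) * g := by rw [this]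
      _ = b⁻¹ * u * b⁻¹⁻¹ := by group

theorem mem_actSub {U B : Subgroup G} {hB : B ≤ Subgroup.normalizer (U : Set G)} {g : G} :
    g ∈ actSub U B hB ↔ g ∈ Subgroup.normalizer (U : Set G) ∧
      ∃ b ∈ B, ∀ u ∈ U, g * u * g⁻¹ = b * u * b⁻¹ := Iff.rfl

theorem actSub_le {U B : Subgroup G} (hB : B ≤ Subgroup.normalizer (U : Set G)) :
    actSub U B hB ≤ Subgroup.normalizer (U : Set G) := fun _ hg => hg.1

theorem le_actSub {U B : Subgroup G} (hB : B ≤ Subgroup.normalizer (U : Set G)) :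
    B ≤ actSub U B hB := fun b hb => ⟨hB hb, b, hb, fun _ _ => rfl⟩

theorem centralizer_le_actSub {U B : Subgroup G} (hB : B ≤ Subgroup.normalizer (U : Set G)) :
    Subgroup.centralizer (U : Set G) ≤ actSub U B hB := by
  intro c hc
  refine ⟨Subgroup.centralizer_le_normalizer _ hc, 1, one_mem B, fun u hu => ?_⟩
  have := Subgroup.mem_centralizer_iff.1 hc u hu
  calc c * u * c⁻¹ = (u * c) * c⁻¹ := by rw [this]
    _ = 1 * u * 1⁻¹ := by group

theorem conj_mem_of_mem_normalizer {U : Subgroup G} {g u : G}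
    (hg : g ∈ Subgroup.normalizer (U : Set G)) (hu : u ∈ U) : g * u * g⁻¹ ∈ U :=
  (Subgroup.mem_normalizer_iff.1 hg u).1 hu

theorem conj_mem_of_mem_normalizer' {U : Subgroup G} {g u : G}
    (hg : g ∈ Subgroup.normalizer (U : Set G)) (hu : u ∈ U) : g⁻¹ * u * g ∈ U := by
  have := conj_mem_of_mem_normalizer (inv_mem hg) hu
  rwa [inv_inv] at this

theorem mem_centralizer_of_conj_eq {U : Subgroup G} {g : G}
    (h : ∀ u ∈ U, g * u * g⁻¹ = u) : g ∈ Subgroup.centralizer (U : Set G) := by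
  rw [Subgroup.mem_centralizer_iff]
  intro u hu
  have := h u hu
  calc u * g = (g * u * g⁻¹) * g := by rw [this]
    _ = g * u := by group

theorem conj_eq_of_mem_centralizer {U : Subgroup G} {g u : G}
    (hg : g ∈ Subgroup.centralizer (U : Set G)) (hu : u ∈ U) : g * u * g⁻¹ = u := by
  have := Subgroup.mem_centralizer_iff.1 hg u hu
  calc g * u * g⁻¹ = (u * g) * g⁻¹ := by rw [this]
    _ = u := by group

section stable

variable [Finite G] {p : ℕ} [Fact p.Prime]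

/-- A subgroup of `N(U)`, normal in `N(U)` and acting on `U` as a `p`-group, acts through
`N_S(U)` when `U` is fully normalised. -/
theorem exists_sylow_induce {S U B : Subgroup G}
    (hsyl : SylIn p (S ⊓ Subgroup.normalizer (U : Set G)) (Subgroup.normalizer (U : Set G)))
    (hBN : B ≤ Subgroup.normalizer (U : Set G))
    (hBinv : ∀ n ∈ Subgroup.normalizer (U : Set G), cj n B = B)
    (hBp : ∀ b ∈ B, ∃ k : ℕ, b ^ (p ^ k) ∈ Subgroup.centralizer (U : Set G)) :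
    ∀ b ∈ B, ∃ t ∈ S ⊓ Subgroup.normalizer (U : Set G), ∀ u ∈ U, t * u * t⁻¹ = b * u * b⁻¹ := by
  have hYN := actSub_le hBN
  have hYinv : ∀ n ∈ Subgroup.normalizer (U : Set G), cj n (actSub U B hBN) = actSub U B hBN := by
    intro n hn
    apply eq_of_le_of_card_le _ (by rw [card_cj])
    rintro _ ⟨y, ⟨hy, b, hb, e⟩, rfl⟩
    refine ⟨mul_mem (mul_mem hn hy) (inv_mem hn), n * b * n⁻¹, ?_, fun u hu => ?_⟩
    · rw [← hBinv n hn]; exact conj_mem_cj hb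
    · have hu' : n⁻¹ * u * n ∈ U := conj_mem_of_mem_normalizer' hn hu
      show n * y * n⁻¹ * u * (n * y * n⁻¹)⁻¹ = n * b * n⁻¹ * u * (n * b * n⁻¹)⁻¹
      calc n * y * n⁻¹ * u * (n * y * n⁻¹)⁻¹ = n * (y * (n⁻¹ * u * n) * y⁻¹) * n⁻¹ := by group
        _ = n * (b * (n⁻¹ * u * n) * b⁻¹) * n⁻¹ := by rw [e _ hu']
        _ = n * b * n⁻¹ * u * (n * b * n⁻¹)⁻¹ := by group
  have hT := hsyl.inf_normal hYN hYinv
  have hK : ∀ n ∈ actSub U B hBN, cj n (Subgroup.centralizer (U : Set G)) =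
      Subgroup.centralizer (U : Set G) := by
    intro n hn
    rw [cj_centralizer, mem_normalizer_iff_cj.1 (hYN hn)]
  have hpow : ∀ (x b : G), b ∈ B → x ∈ Subgroup.normalizer (U : Set G) →
      (∀ u ∈ U, x * u * x⁻¹ = b * u * b⁻¹) →
      ∀ n : ℕ, ∀ u ∈ U, x ^ n * u * (x ^ n)⁻¹ = b ^ n * u * (b ^ n)⁻¹ := by
    intro x b hb hx e n
    induction n with
    | zero => intro u _; simp
    | succ n ih =>
      intro u hu
      have hu' : b ^ n * u * (b ^ n)⁻¹ ∈ U :=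
        conj_mem_of_mem_normalizer (hBN (pow_mem hb n)) hu
      calc x ^ (n + 1) * u * (x ^ (n + 1))⁻¹ = x * (x ^ n * u * (x ^ n)⁻¹) * x⁻¹ := by
            rw [pow_succ']; group
        _ = x * (b ^ n * u * (b ^ n)⁻¹) * x⁻¹ := by rw [ih u hu]
        _ = b * (b ^ n * u * (b ^ n)⁻¹) * b⁻¹ := e _ hu'
        _ = b ^ (n + 1) * u * (b ^ (n + 1))⁻¹ := by rw [pow_succ']; group
  have hpq : ∀ x ∈ actSub U B hBN, ∃ k : ℕ, x ^ (p ^ k) ∈ Subgroup.centralizer (U : Set G) := by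
    rintro x ⟨hx, b, hb, e⟩
    obtain ⟨k, hk⟩ := hBp b hb
    refine ⟨k, mem_centralizer_of_conj_eq fun u hu => ?_⟩
    rw [hpow x b hb hx e (p ^ k) u hu]
    exact conj_eq_of_mem_centralizer hk hu
  have hmul := exists_mul_of_pquotient hT hK hpq
  intro b hb
  obtain ⟨t, ht, c, hc, e⟩ := hmul b (le_actSub hBN hb)
  refine ⟨t, (Subgroup.mem_inf.1 ht).1, fun u hu => ?_⟩
  rw [e]
  have := conj_eq_of_mem_centralizer hc hu
  calc t * u * t⁻¹ = t * (c * u * c⁻¹) * t⁻¹ := by rw [this]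
    _ = t * c * u * (t * c)⁻¹ := by group

/-- The elements of `N(U)` centralising `Z` and `U / Z`. -/
def stabSub (U Z : Subgroup G) (hZ : Z.Normal) : Subgroup G where
  carrier := {g | g ∈ Subgroup.normalizer (U : Set G) ∧ (∀ z ∈ Z, g * z = z * g) ∧
    ∀ u ∈ U, g * u * g⁻¹ * u⁻¹ ∈ Z}
  mul_mem' := by
    rintro g₁ g₂ ⟨hg₁, c₁, e₁⟩ ⟨hg₂, c₂, e₂⟩
    refine ⟨mul_mem hg₁ hg₂, fun z hz => ?_, fun u hu => ?_⟩
    · calc g₁ * g₂ * z = g₁ * (g₂ * z) := by group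
        _ = g₁ * (z * g₂) := by rw [c₂ z hz]
        _ = (g₁ * z) * g₂ := by group
        _ = (z * g₁) * g₂ := by rw [c₁ z hz]
        _ = z * (g₁ * g₂) := by group
    · have h2 := e₂ u hu
      have h1 := e₁ u hu
      have h3 : g₁ * (g₂ * u * g₂⁻¹ * u⁻¹) * g₁⁻¹ ∈ Z := hZ.conj_mem _ h2 g₁
      have : g₁ * g₂ * u * (g₁ * g₂)⁻¹ * u⁻¹ =
          g₁ * (g₂ * u * g₂⁻¹ * u⁻¹) * g₁⁻¹ * (g₁ * u * g₁⁻¹ * u⁻¹) := by group
      rw [this]
      exact mul_mem h3 h1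
  one_mem' := ⟨one_mem _, fun z _ => by group, fun u _ => by
    have : (1 : G) * u * 1⁻¹ * u⁻¹ = 1 := by group
    rw [this]; exact one_mem Z⟩
  inv_mem' := by
    rintro g ⟨hg, c, e⟩
    refine ⟨inv_mem hg, fun z hz => ?_, fun u hu => ?_⟩
    · have := c z hz
      calc g⁻¹ * z = g⁻¹ * (z * g) * g⁻¹ := by group
        _ = g⁻¹ * (g * z) * g⁻¹ := by rw [this]
        _ = z * g⁻¹ := by group
    · have hu' : g⁻¹ * u * g ∈ U := conj_mem_of_mem_normalizer' hg hu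
      have h1 := e _ hu'
      have : g⁻¹ * u * g⁻¹⁻¹ * u⁻¹ = (g * (g⁻¹ * u * g) * g⁻¹ * (g⁻¹ * u * g)⁻¹)⁻¹ := by group
      rw [this]
      exact inv_mem h1

omit [Finite G] in
theorem mem_stabSub {U Z : Subgroup G} {hZ : Z.Normal} {g : G} :
    g ∈ stabSub U Z hZ ↔ g ∈ Subgroup.normalizer (U : Set G) ∧ (∀ z ∈ Z, g * z = z * g) ∧
      ∀ u ∈ U, g * u * g⁻¹ * u⁻¹ ∈ Z := Iff.rfl

omit [Finite G] in
theorem stabSub_conj {U Z : Subgroup G} (hZ : Z.Normal) {n g : G}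
    (hn : n ∈ Subgroup.normalizer (U : Set G)) (hg : g ∈ stabSub U Z hZ) :
    n * g * n⁻¹ ∈ stabSub U Z hZ := by
  obtain ⟨hgN, c, e⟩ := hg
  refine ⟨mul_mem (mul_mem hn hgN) (inv_mem hn), fun z hz => ?_, fun u hu => ?_⟩
  · have hz' : n⁻¹ * z * n ∈ Z := by
      have := hZ.conj_mem z hz n⁻¹
      rwa [inv_inv] at this
    have := c _ hz'
    calc n * g * n⁻¹ * z = n * (g * (n⁻¹ * z * n)) * n⁻¹ := by group
      _ = n * ((n⁻¹ * z * n) * g) * n⁻¹ := by rw [this]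
      _ = z * (n * g * n⁻¹) := by group
  · have hu' : n⁻¹ * u * n ∈ U := conj_mem_of_mem_normalizer' hn hu
    have h1 := hZ.conj_mem _ (e _ hu') n
    have : n * g * n⁻¹ * u * (n * g * n⁻¹)⁻¹ * u⁻¹ =
        n * (g * (n⁻¹ * u * n) * g⁻¹ * (n⁻¹ * u * n)⁻¹) * n⁻¹ := by group
    rw [this]
    exact h1

/-- Automorphisms of a fully normalised `U` induced by `N(U)` that centralise `Z` and `U / Z`
are induced by `N_S(U)`. -/
theorem stable_induce {S U Z : Subgroup G}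
    (hsyl : SylIn p (S ⊓ Subgroup.normalizer (U : Set G)) (Subgroup.normalizer (U : Set G)))
    (hZp : IsPGroup p Z) (hZ : Z.Normal) {b : G} (hb : b ∈ stabSub U Z hZ) :
    ∃ t ∈ S ⊓ Subgroup.normalizer (U : Set G), ∀ u ∈ U, t * u * t⁻¹ = b * u * b⁻¹ := by
  have hBN : stabSub U Z hZ ≤ Subgroup.normalizer (U : Set G) := fun _ hg => hg.1
  have hBinv : ∀ n ∈ Subgroup.normalizer (U : Set G), cj n (stabSub U Z hZ) = stabSub U Z hZ := by
    intro n hn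
    apply eq_of_le_of_card_le _ (by rw [card_cj])
    rintro _ ⟨g, hg, rfl⟩
    exact stabSub_conj hZ hn hg
  obtain ⟨k, hk⟩ := IsPGroup.iff_card.1 hZp
  have hBp : ∀ g ∈ stabSub U Z hZ, ∃ k : ℕ, g ^ (p ^ k) ∈ Subgroup.centralizer (U : Set G) := by
    rintro g ⟨hgN, c, e⟩
    refine ⟨k, mem_centralizer_of_conj_eq fun u hu => ?_⟩
    have hζ := e u hu
    have hpow : ∀ n : ℕ, g ^ n * u * (g ^ n)⁻¹ = (g * u * g⁻¹ * u⁻¹) ^ n * u := by
      intro n
      induction n with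
      | zero => simp
      | succ n ih =>
        have hc := c _ (pow_mem hζ n)
        calc g ^ (n + 1) * u * (g ^ (n + 1))⁻¹ = g * (g ^ n * u * (g ^ n)⁻¹) * g⁻¹ := by
              rw [pow_succ']; group
          _ = g * ((g * u * g⁻¹ * u⁻¹) ^ n * u) * g⁻¹ := by rw [ih]
          _ = (g * (g * u * g⁻¹ * u⁻¹) ^ n) * u * g⁻¹ := by group
          _ = ((g * u * g⁻¹ * u⁻¹) ^ n * g) * u * g⁻¹ := by rw [hc]
          _ = (g * u * g⁻¹ * u⁻¹) ^ n * (g * u * g⁻¹ * u⁻¹) * u := by group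
          _ = (g * u * g⁻¹ * u⁻¹) ^ (n + 1) * u := by rw [pow_succ]
    rw [hpow (p ^ k)]
    have h1 : (g * u * g⁻¹ * u⁻¹) ^ (p ^ k) = 1 := by
      have := pow_card_eq_one' (G := ↥Z) (x := ⟨_, hζ⟩)
      rw [hk] at this
      exact congrArg Subtype.val this
    rw [h1, one_mul]
  exact exists_sylow_induce hsyl hBN hBinv hBp b hb

end stable

end Cfsg.Agent.Lib.Helper51
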