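import Mathlib
import Cfsg.Agent.Lib.Helper51.FusCtl

/-!
# Control of strong fusion: lifting through a normal `p`-subgroup, radical subgroups
-/

set_option autoImplicit false

namespace Cfsg.Agent.Lib.Helper51

open Cfsg Cfsg.Agent.Lib.Helper33

variable {G : Type*} [Group G] [Finite G] {p : ℕ} [Fact p.Prime]

/-- Lifting control of strong fusion from `G / Q₁` to `G`, for `Q₁ ≤ Q₂ ≤ Q₁ C(Q₁)`. -/
theorem sctl_lift {S Q₁ Q₂ : Subgroup G} (hS : SylIn p S ⊤)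
    (hQ₁n : Q₁.Normal) (hQ₁₂ : Q₁ ≤ Q₂) (hQ₂S : Q₂ ≤ S)
    (hSQ₂ : S ≤ Subgroup.normalizer (Q₂ : Set G))
    (hQ₂ : ∀ x ∈ Q₂, ∃ q ∈ Q₁, ∃ t ∈ Subgroup.centralizer (Q₁ : Set G), x = q * t)
    (hmod : ∀ U : Subgroup G, U ≤ S → Q₁ ≤ U → ∀ m ∈ Subgroup.normalizer (U : Set G),
      ∃ h ∈ Subgroup.normalizer (Q₂ : Set G),
        ∀ u ∈ U, (h⁻¹ * m) * u * (h⁻¹ * m)⁻¹ * u⁻¹ ∈ Q₁) :
    SCtl (Subgroup.normalizer (Q₂ : Set G)) S := by
  have hpS : IsPGroup p S := hS.2.1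
  have hQ₁S : Q₁ ≤ S := hQ₁₂.trans hQ₂S
  have hCn : (Subgroup.centralizer (Q₁ : Set G)).Normal := by
    have := hQ₁n; infer_instance
  apply sctl_of_alperin hS
  intro U hU hsyl IH m hm
  by_cases hQ₁U : Q₁ ≤ U
  swap
  · have hlt : Nat.card U < Nat.card ↥(U ⊔ Q₁) := by
      apply card_lt_of_lt
      refine lt_of_le_of_ne le_sup_left (fun h => hQ₁U ?_)
      have h2 : Q₁ ≤ U ⊔ Q₁ := le_sup_right
      rw [← h] at h2
      exact h2
    have hcj : cj m⁻¹ (U ⊔ Q₁) ≤ S := by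
      have e : cj m⁻¹ (U ⊔ Q₁) = cj m⁻¹ U ⊔ cj m⁻¹ Q₁ := Subgroup.map_sup _ _ _
      rw [e, mem_normalizer_iff_cj.1 (inv_mem hm), cj_eq_self_of_normal hQ₁n]
      exact sup_le hU hQ₁S
    exact (IH _ (sup_le hU hQ₁S) hlt m hcj).mono
      (show (U : Set G) ⊆ ((U ⊔ Q₁ : Subgroup G) : Set G) from (le_sup_left : U ≤ U ⊔ Q₁))
  suffices hsuff : ∃ x ∈ Subgroup.normalizer (Q₂ : Set G),
      ∀ a ∈ U, x * a * x⁻¹ = m⁻¹ * a * m⁻¹⁻¹ by
    obtain ⟨x, hx, e⟩ := hsuff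
    exact ⟨x, hx, fun a ha => by rw [e a ha, inv_inv]⟩
  have hn : m⁻¹ ∈ Subgroup.normalizer (U : Set G) := inv_mem hm
  generalize m⁻¹ = n at hn ⊢
  obtain ⟨h, hh, hc⟩ := hmod U hU hQ₁U n hn
  have hcN : h⁻¹ * n ∈ Subgroup.normalizer (U : Set G) := by
    apply mem_normalizer_iff_cj.2
    apply eq_of_le_of_card_le _ (by rw [card_cj])
    rintro _ ⟨u, hu, rfl⟩
    have h1 := hQ₁U (hc u hu)
    have : (h⁻¹ * n) * u * (h⁻¹ * n)⁻¹ = ((h⁻¹ * n) * u * (h⁻¹ * n)⁻¹ * u⁻¹) * u := by group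
    show (h⁻¹ * n) * u * (h⁻¹ * n)⁻¹ ∈ U
    rw [this]; exact mul_mem h1 hu
  have hhN : h ∈ Subgroup.normalizer (U : Set G) := by
    have : h = n * (h⁻¹ * n)⁻¹ := by group
    rw [this]; exact mul_mem hn (inv_mem hcN)
  by_cases hQ₂U : Q₂ ≤ U
  · have hcQ₂ : h⁻¹ * n ∈ Subgroup.normalizer (Q₂ : Set G) := by
      apply mem_normalizer_iff_cj.2
      apply eq_of_le_of_card_le _ (by rw [card_cj])
      rintro _ ⟨x, hx, rfl⟩
      have h1 := hQ₁₂ (hc x (hQ₂U hx))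
      have : (h⁻¹ * n) * x * (h⁻¹ * n)⁻¹ = ((h⁻¹ * n) * x * (h⁻¹ * n)⁻¹ * x⁻¹) * x := by group
      show (h⁻¹ * n) * x * (h⁻¹ * n)⁻¹ ∈ Q₂
      rw [this]; exact mul_mem h1 hx
    refine ⟨n, ?_, fun a _ => rfl⟩
    have : n = h * (h⁻¹ * n) := by group
    rw [this]; exact mul_mem hh hcQ₂
  · have hT₂S : Q₂ ⊓ Subgroup.centralizer (Q₁ : Set G) ≤ S := inf_le_left.trans hQ₂S
    have hST₂ : S ≤ Subgroup.normalizer
        ((Q₂ ⊓ Subgroup.centralizer (Q₁ : Set G) : Subgroup G) : Set G) := by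
      intro s hs
      rw [mem_normalizer_iff_cj, cj_inf, mem_normalizer_iff_cj.1 (hSQ₂ hs),
        cj_eq_self_of_normal hCn]
    have hT₂U : ¬ Q₂ ⊓ Subgroup.centralizer (Q₁ : Set G) ≤ U := by
      intro hle
      apply hQ₂U
      intro x hx
      obtain ⟨q, hq, t, ht, rfl⟩ := hQ₂ x hx
      have htQ₂ : t ∈ Q₂ := by
        have : t = q⁻¹ * (q * t) := by group
        rw [this]; exact mul_mem (inv_mem (hQ₁₂ hq)) hx
      exact mul_mem (hQ₁U hq) (hle (Subgroup.mem_inf.2 ⟨htQ₂, ht⟩))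
    have hne : U ≠ U ⊔ (Q₂ ⊓ Subgroup.centralizer (Q₁ : Set G)) := by
      intro h; apply hT₂U
      have h2 : Q₂ ⊓ Subgroup.centralizer (Q₁ : Set G) ≤
          U ⊔ (Q₂ ⊓ Subgroup.centralizer (Q₁ : Set G)) := le_sup_right
      rw [← h] at h2; exact h2
    obtain ⟨y, hy, hyU⟩ := exists_mem_normalizer_not_mem (hpS.to_le (sup_le hU hT₂S))
      (le_sup_left : U ≤ U ⊔ (Q₂ ⊓ Subgroup.centralizer (Q₁ : Set G))) hne
    obtain ⟨u₀, hu₀, t₀, ht₀, rfl⟩ := exists_mul_of_mem_sup (hU.trans hST₂)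
      (Subgroup.mem_inf.1 hy).1
    have ht₀N : t₀ ∈ Subgroup.normalizer (U : Set G) := by
      have : t₀ = u₀⁻¹ * (u₀ * t₀) := by group
      rw [this]
      exact mul_mem (inv_mem (Subgroup.le_normalizer hu₀)) (Subgroup.mem_inf.1 hy).2
    have ht₀U : t₀ ∉ U := fun h => hyU (mul_mem hu₀ h)
    have hES : (Q₂ ⊓ Subgroup.centralizer (Q₁ : Set G)) ⊓ Subgroup.normalizer (U : Set G) ≤
        S ⊓ Subgroup.normalizer (U : Set G) := le_inf (inf_le_left.trans hT₂S) inf_le_right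
    have hlt : Nat.card U < Nat.card ↥(U ⊔ ((Q₂ ⊓ Subgroup.centralizer (Q₁ : Set G)) ⊓
        Subgroup.normalizer (U : Set G))) := by
      apply card_lt_of_lt
      refine lt_of_le_of_ne le_sup_left (fun h => ht₀U ?_)
      have h2 : (Q₂ ⊓ Subgroup.centralizer (Q₁ : Set G)) ⊓ Subgroup.normalizer (U : Set G) ≤
          U ⊔ ((Q₂ ⊓ Subgroup.centralizer (Q₁ : Set G)) ⊓ Subgroup.normalizer (U : Set G)) :=
        le_sup_right
      rw [← h] at h2
      exact h2 (Subgroup.mem_inf.2 ⟨ht₀, ht₀N⟩)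
    have hBY : S ⊓ Subgroup.normalizer (U : Set G) ≤ Subgroup.normalizer (U : Set G) :=
      inf_le_right
    have hkey : cj n ((Q₂ ⊓ Subgroup.centralizer (Q₁ : Set G)) ⊓
        Subgroup.normalizer (U : Set G)) ≤
        actSub U (S ⊓ Subgroup.normalizer (U : Set G)) hBY := by
      rintro _ ⟨x, hx, rfl⟩
      show n * x * n⁻¹ ∈ _
      obtain ⟨hxT, hxN⟩ := Subgroup.mem_inf.1 hx
      obtain ⟨hxQ₂, hxC⟩ := Subgroup.mem_inf.1 hxT
      have hb : (h⁻¹ * n) * x * (h⁻¹ * n)⁻¹ * x⁻¹ ∈ stabSub U Q₁ hQ₁n := by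
        refine ⟨mul_mem (mul_mem (mul_mem hcN hxN) (inv_mem hcN)) (inv_mem hxN), ?_, ?_⟩
        · have hmem : (h⁻¹ * n) * x * (h⁻¹ * n)⁻¹ * x⁻¹ ∈ Subgroup.centralizer (Q₁ : Set G) :=
            mul_mem (hCn.conj_mem x hxC _) (inv_mem hxC)
          intro z hz
          exact (Subgroup.mem_centralizer_iff.1 hmem z hz).symm
        · intro u hu
          have hu₁ : x⁻¹ * u * x ∈ U := conj_mem_of_mem_normalizer' hxN hu
          have hu₂ : (h⁻¹ * n)⁻¹ * (x⁻¹ * u * x) * (h⁻¹ * n) ∈ U :=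
            conj_mem_of_mem_normalizer' hcN hu₁
          have hζ₁ : (h⁻¹ * n)⁻¹ * (x⁻¹ * u * x) * (h⁻¹ * n) * (x⁻¹ * u * x)⁻¹ ∈ Q₁ := by
            have := hc _ hu₂
            have e : (h⁻¹ * n)⁻¹ * (x⁻¹ * u * x) * (h⁻¹ * n) * (x⁻¹ * u * x)⁻¹ =
              ((h⁻¹ * n) * ((h⁻¹ * n)⁻¹ * (x⁻¹ * u * x) * (h⁻¹ * n)) * (h⁻¹ * n)⁻¹ *
                ((h⁻¹ * n)⁻¹ * (x⁻¹ * u * x) * (h⁻¹ * n))⁻¹)⁻¹ := by group
            rw [e]; exact inv_mem this
          have hζ₃ := hc u hu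
          have e : (h⁻¹ * n) * x * (h⁻¹ * n)⁻¹ * x⁻¹ * u *
              ((h⁻¹ * n) * x * (h⁻¹ * n)⁻¹ * x⁻¹)⁻¹ * u⁻¹ =
              (h⁻¹ * n) * (x * ((h⁻¹ * n)⁻¹ * (x⁻¹ * u * x) * (h⁻¹ * n) * (x⁻¹ * u * x)⁻¹) *
                x⁻¹) * (h⁻¹ * n)⁻¹ * ((h⁻¹ * n) * u * (h⁻¹ * n)⁻¹ * u⁻¹) := by group
          rw [e]
          exact mul_mem (hQ₁n.conj_mem _ (hQ₁n.conj_mem _ hζ₁ x) _) hζ₃
      have hb' := stabSub_conj hQ₁n hhN hb
      obtain ⟨t, ht, et⟩ := stable_induce hsyl (hpS.to_le hQ₁S) hQ₁n hb'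
      have hbY : h * ((h⁻¹ * n) * x * (h⁻¹ * n)⁻¹ * x⁻¹) * h⁻¹ ∈
          actSub U (S ⊓ Subgroup.normalizer (U : Set G)) hBY :=
        ⟨hb'.1, t, ht, fun u hu => (et u hu).symm⟩
      have hxh : h * x * h⁻¹ ∈ actSub U (S ⊓ Subgroup.normalizer (U : Set G)) hBY := by
        apply le_actSub hBY
        apply hES
        exact Subgroup.mem_inf.2 ⟨Subgroup.mem_inf.2 ⟨conj_mem_of_mem_normalizer hh hxQ₂,
          hCn.conj_mem x hxC h⟩, mul_mem (mul_mem hhN hxN) (inv_mem hhN)⟩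
      have e : n * x * n⁻¹ = (h * ((h⁻¹ * n) * x * (h⁻¹ * n)⁻¹ * x⁻¹) * h⁻¹) * (h * x * h⁻¹) := by
        group
      rw [e]
      exact mul_mem hbY hxh
    have hsylY : SylIn p (S ⊓ Subgroup.normalizer (U : Set G))
        (actSub U (S ⊓ Subgroup.normalizer (U : Set G)) hBY) :=
      hsyl.of_le (le_actSub hBY) (actSub_le hBY)
    have hpE : IsPGroup p (cj n ((Q₂ ⊓ Subgroup.centralizer (Q₁ : Set G)) ⊓
        Subgroup.normalizer (U : Set G))) := isPGroup_cj (hpS.to_le (hES.trans inf_le_left))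
    obtain ⟨y, hy, hyle⟩ := hsylY.exists_cj_le hkey hpE
    obtain ⟨-, t, ht, et⟩ := hy
    have hz : t⁻¹ * y ∈ Subgroup.centralizer (U : Set G) := by
      apply mem_centralizer_of_conj_eq
      intro u hu
      calc t⁻¹ * y * u * (t⁻¹ * y)⁻¹ = t⁻¹ * (y * u * y⁻¹) * t := by group
        _ = t⁻¹ * (t * u * t⁻¹) * t := by rw [et u hu]
        _ = u := by group
    have hzE : cj (t⁻¹ * y) (cj n ((Q₂ ⊓ Subgroup.centralizer (Q₁ : Set G)) ⊓
        Subgroup.normalizer (U : Set G))) ≤ S ⊓ Subgroup.normalizer (U : Set G) := by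
      rw [cj_mul]
      have := cj_mono (g := t⁻¹) hyle
      rwa [cj_eq_self_of_mem (inv_mem ht)] at this
    have hm'U : cj (t⁻¹ * y * n) U = U := by
      rw [cj_mul, mem_normalizer_iff_cj.1 hn]
      exact mem_normalizer_iff_cj.1 (Subgroup.centralizer_le_normalizer _ hz)
    have hcj : cj (t⁻¹ * y * n)⁻¹⁻¹ (U ⊔ ((Q₂ ⊓ Subgroup.centralizer (Q₁ : Set G)) ⊓
        Subgroup.normalizer (U : Set G))) ≤ S := by
      rw [inv_inv]
      have e : cj (t⁻¹ * y * n) (U ⊔ ((Q₂ ⊓ Subgroup.centralizer (Q₁ : Set G)) ⊓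
          Subgroup.normalizer (U : Set G))) = cj (t⁻¹ * y * n) U ⊔
          cj (t⁻¹ * y * n) ((Q₂ ⊓ Subgroup.centralizer (Q₁ : Set G)) ⊓
          Subgroup.normalizer (U : Set G)) := Subgroup.map_sup _ _ _
      rw [e, hm'U, cj_mul]
      exact sup_le hU (hzE.trans inf_le_left)
    obtain ⟨x, hx, ex⟩ := IH _ (sup_le hU (hES.trans inf_le_left)) hlt _ hcj
    refine ⟨x, hx, fun a ha => ?_⟩
    rw [ex a ((le_sup_left : U ≤ U ⊔ ((Q₂ ⊓ Subgroup.centralizer (Q₁ : Set G)) ⊓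
        Subgroup.normalizer (U : Set G))) ha), inv_inv]
    have ha' : n * a * n⁻¹ ∈ U := conj_mem_of_mem_normalizer hn ha
    have := conj_eq_of_mem_centralizer hz ha'
    calc (t⁻¹ * y * n) * a * (t⁻¹ * y * n)⁻¹ = (t⁻¹ * y) * (n * a * n⁻¹) * (t⁻¹ * y)⁻¹ := by
          group
      _ = n * a * n⁻¹ := this

/-- If `Q` is a normal centric `p`-subgroup and `G = C(Q) N(D)` for some `Q ≤ D ⊴ S`, then
`N(D)` controls strong fusion in `S`. -/
theorem sctl_radical {S Q D : Subgroup G} (hS : SylIn p S ⊤)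
    (hQn : Q.Normal) (hcen : S ⊓ Subgroup.centralizer (Q : Set G) ≤ Q)
    (hQD : Q ≤ D) (hDS : D ≤ S) (hSD : S ≤ Subgroup.normalizer (D : Set G))
    (hfr : ∀ g : G, ∃ c ∈ Subgroup.centralizer (Q : Set G),
      c * g ∈ Subgroup.normalizer (D : Set G)) :
    SCtl (Subgroup.normalizer (D : Set G)) S := by
  have hpS : IsPGroup p S := hS.2.1
  have hQS : Q ≤ S := hQD.trans hDS
  have hCn : (Subgroup.centralizer (Q : Set G)).Normal := by
    have := hQn; infer_instance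
  apply sctl_of_alperin hS
  intro U hU hsyl IH m hm
  by_cases hQU : Q ≤ U
  swap
  · have hlt : Nat.card U < Nat.card ↥(U ⊔ Q) := by
      apply card_lt_of_lt
      refine lt_of_le_of_ne le_sup_left (fun h => hQU ?_)
      have h2 : Q ≤ U ⊔ Q := le_sup_right
      rw [← h] at h2
      exact h2
    have hcj : cj m⁻¹ (U ⊔ Q) ≤ S := by
      have e : cj m⁻¹ (U ⊔ Q) = cj m⁻¹ U ⊔ cj m⁻¹ Q := Subgroup.map_sup _ _ _
      rw [e, mem_normalizer_iff_cj.1 (inv_mem hm), cj_eq_self_of_normal hQn]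
      exact sup_le hU hQS
    exact (IH _ (sup_le hU hQS) hlt m hcj).mono
      (show (U : Set G) ⊆ ((U ⊔ Q : Subgroup G) : Set G) from (le_sup_left : U ≤ U ⊔ Q))
  suffices hsuff : ∃ x ∈ Subgroup.normalizer (D : Set G),
      ∀ a ∈ U, x * a * x⁻¹ = m⁻¹ * a * m⁻¹⁻¹ by
    obtain ⟨x, hx, e⟩ := hsuff
    exact ⟨x, hx, fun a ha => by rw [e a ha, inv_inv]⟩
  have hn : m⁻¹ ∈ Subgroup.normalizer (U : Set G) := inv_mem hm
  generalize m⁻¹ = n at hn ⊢
  obtain ⟨c, hc, hcn⟩ := hfr n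
  have e1 : cj (c * n) U = cj c U := by rw [cj_mul, mem_normalizer_iff_cj.1 hn]
  have hcUN : cj c U ≤ Subgroup.normalizer (D : Set G) := by
    rw [← e1]
    have := cj_mono (g := c * n) (hU.trans hSD)
    rwa [cj_eq_self_of_mem hcn] at this
  have hUM : U ≤ (U ⊔ Subgroup.centralizer (Q : Set G)) ⊓ Subgroup.normalizer (D : Set G) :=
    le_inf le_sup_left (hU.trans hSD)
  have hcUM : cj c U ≤ (U ⊔ Subgroup.centralizer (Q : Set G)) ⊓
      Subgroup.normalizer (D : Set G) := by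
    refine le_inf ?_ hcUN
    rintro _ ⟨u, hu, rfl⟩
    show c * u * c⁻¹ ∈ _
    have : c * u * c⁻¹ = u * (u⁻¹ * c * u * c⁻¹) := by group
    rw [this]
    refine mul_mem (Subgroup.mem_sup_left hu) (Subgroup.mem_sup_right (mul_mem ?_ (inv_mem hc)))
    have := hCn.conj_mem c hc u⁻¹
    rwa [inv_inv] at this
  obtain ⟨T, hT, hUT⟩ := exists_sylIn_ge (p := p) hUM (hpS.to_le hU)
  have hSC : SylIn p (S ⊓ Subgroup.centralizer (Q : Set G)) (Subgroup.centralizer (Q : Set G)) :=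
    hS.inf_normal le_top (fun n _ => cj_eq_self_of_normal hCn n)
  have hTC : T ⊓ Subgroup.centralizer (Q : Set G) = S ⊓ Subgroup.centralizer (Q : Set G) := by
    apply hSC.eq_of_le inf_le_right (hT.2.1.to_le inf_le_left)
    exact le_inf ((hcen.trans hQU).trans hUT) inf_le_right
  have hTU : T ≤ U := by
    intro y hy
    have hyM := hT.1 hy
    obtain ⟨u, hu, k, hk, rfl⟩ := Subgroup.mem_sup_of_normal_right.1 (Subgroup.mem_inf.1 hyM).1
    have hkT : k ∈ T := by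
      have : k = u⁻¹ * (u * k) := by group
      rw [this]; exact mul_mem (inv_mem (hUT hu)) hy
    have hkS : k ∈ S ⊓ Subgroup.centralizer (Q : Set G) := by
      rw [← hTC]; exact Subgroup.mem_inf.2 ⟨hkT, hk⟩
    exact mul_mem hu (hQU (hcen hkS))
  have hUeq : T = U := le_antisymm hTU hUT
  rw [hUeq] at hT
  have hcUsyl : SylIn p (cj c U) ((U ⊔ Subgroup.centralizer (Q : Set G)) ⊓
      Subgroup.normalizer (D : Set G)) :=
    sylIn_of_card hT hcUM (isPGroup_cj (hpS.to_le hU)) (by rw [card_cj])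
  obtain ⟨y, hy, hyU⟩ := hT.exists_cj_eq hcUsyl
  obtain ⟨u, hu, k₁, hk₁, rfl⟩ := Subgroup.mem_sup_of_normal_right.1 (Subgroup.mem_inf.1 hy).1
  have hk₁D : k₁ ∈ Subgroup.normalizer (D : Set G) := by
    have : k₁ = u⁻¹ * (u * k₁) := by group
    rw [this]; exact mul_mem (inv_mem (hSD (hU hu))) (Subgroup.mem_inf.1 hy).2
  have hk₁U : cj k₁ (cj c U) = U := by
    calc cj k₁ (cj c U) = cj (u⁻¹ * (u * k₁)) (cj c U) := by congr 1; group
      _ = cj u⁻¹ (cj (u * k₁) (cj c U)) := cj_mul _ _ _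
      _ = cj u⁻¹ U := by rw [hyU]
      _ = U := cj_eq_self_of_mem (inv_mem hu)
  have hbC : k₁ * c ∈ Subgroup.centralizer (Q : Set G) := mul_mem hk₁ hc
  have hbN : k₁ * c ∈ Subgroup.normalizer (U : Set G) :=
    mem_normalizer_iff_cj.2 (by rw [cj_mul]; exact hk₁U)
  have hZn : (Q ⊓ Subgroup.centralizer (Q : Set G)).Normal := by
    have := hQn; infer_instance
  have hb : k₁ * c ∈ stabSub U (Q ⊓ Subgroup.centralizer (Q : Set G)) hZn := by
    refine ⟨hbN, fun z hz => ?_, fun u hu => ?_⟩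
    · exact (Subgroup.mem_centralizer_iff.1 hbC z (Subgroup.mem_inf.1 hz).1).symm
    · have h1 : k₁ * c * u * (k₁ * c)⁻¹ * u⁻¹ ∈ U :=
        mul_mem (conj_mem_of_mem_normalizer hbN hu) (inv_mem hu)
      have h2 : k₁ * c * u * (k₁ * c)⁻¹ * u⁻¹ ∈ Subgroup.centralizer (Q : Set G) := by
        have : k₁ * c * u * (k₁ * c)⁻¹ * u⁻¹ = (k₁ * c) * (u * (k₁ * c)⁻¹ * u⁻¹) := by group
        rw [this]
        exact mul_mem hbC (hCn.conj_mem _ (inv_mem hbC) u)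
      have h3 := hcen (Subgroup.mem_inf.2 ⟨hU h1, h2⟩)
      exact Subgroup.mem_inf.2 ⟨h3, h2⟩
  obtain ⟨t, ht, et⟩ := stable_induce hsyl (hpS.to_le (inf_le_left.trans hQS)) hZn hb
  refine ⟨t⁻¹ * (k₁ * (c * n)),
    mul_mem (inv_mem (hSD (Subgroup.mem_inf.1 ht).1)) (mul_mem hk₁D hcn), fun a ha => ?_⟩
  have hw : (k₁ * (c * n)) * a * (k₁ * (c * n))⁻¹ ∈ U := by
    have h1 : (k₁ * (c * n)) * a * (k₁ * (c * n))⁻¹ ∈ cj (k₁ * (c * n)) U := conj_mem_cj ha
    rw [cj_mul, e1, hk₁U] at h1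
    exact h1
  have hw' : t⁻¹ * ((k₁ * (c * n)) * a * (k₁ * (c * n))⁻¹) * t ∈ U :=
    conj_mem_of_mem_normalizer' (Subgroup.mem_inf.1 ht).2 hw
  have := et _ hw'
  calc t⁻¹ * (k₁ * (c * n)) * a * (t⁻¹ * (k₁ * (c * n)))⁻¹
      = t⁻¹ * ((k₁ * (c * n)) * a * (k₁ * (c * n))⁻¹) * t := by group
    _ = (k₁ * c)⁻¹ * ((k₁ * c) * (t⁻¹ * ((k₁ * (c * n)) * a * (k₁ * (c * n))⁻¹) * t) *
          (k₁ * c)⁻¹) * (k₁ * c) := by group
    _ = (k₁ * c)⁻¹ * (t * (t⁻¹ * ((k₁ * (c * n)) * a * (k₁ * (c * n))⁻¹) * t) * t⁻¹) *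
          (k₁ * c) := by rw [this]
    _ = n * a * n⁻¹ := by group

/-- A subgroup `H` all of whose elements have a `p`-power in the `H`-invariant subgroup `K`
has `p`-power index over `K`. -/
theorem relIndex_eq_pow_of_forall {H K : Subgroup G} (hK : ∀ n ∈ H, cj n K = K)
    (hpq : ∀ x ∈ H, ∃ k : ℕ, x ^ (p ^ k) ∈ K) : ∃ n : ℕ, K.relIndex H = p ^ n := by
  have hKn : (K.subgroupOf H).Normal := by
    refine ⟨fun a ha g => ?_⟩
    rw [Subgroup.mem_subgroupOf] at ha ⊢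
    have h1 : (g : G) * a * (g : G)⁻¹ ∈ cj (g : G) K := conj_mem_cj ha
    rw [hK g g.2] at h1
    exact h1
  have hp : IsPGroup p (↥H ⧸ K.subgroupOf H) := by
    intro q
    obtain ⟨x, rfl⟩ := QuotientGroup.mk_surjective q
    obtain ⟨k, hk⟩ := hpq x x.2
    refine ⟨k, ?_⟩
    rw [← QuotientGroup.mk_pow, QuotientGroup.eq_one_iff, Subgroup.mem_subgroupOf]
    exact hk
  obtain ⟨n, hn⟩ := IsPGroup.iff_card.1 hp
  refine ⟨n, ?_⟩
  show (K.subgroupOf H).index = p ^ n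
  rw [Subgroup.index_eq_card]; exact hn

/-- A normal subgroup `Q` of `P` whose normaliser controls strong fusion in `P` lies in every
centric radical subgroup of `P`. -/
theorem le_of_cr {P Q R : Subgroup G} (hP : IsPGroup p P)
    (hQP : Q ≤ P) (hPQ : P ≤ Subgroup.normalizer (Q : Set G))
    (hctl : SCtl (Subgroup.normalizer (Q : Set G)) P) (hRP : R ≤ P)
    (hcen : SylIn p (R ⊓ Subgroup.centralizer (R : Set G)) (Subgroup.centralizer (R : Set G)))
    (hrad : ∀ X : Subgroup G, X ≤ Subgroup.normalizer (R : Set G) →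
        (∀ n ∈ Subgroup.normalizer (R : Set G), cj n X = X) →
        R ⊔ Subgroup.centralizer (R : Set G) ≤ X →
        (∃ k : ℕ, (R ⊔ Subgroup.centralizer (R : Set G)).relIndex X = p ^ k) →
        X = R ⊔ Subgroup.centralizer (R : Set G)) :
    Q ≤ R := by
  have hYN : R ⊔ Subgroup.centralizer (R : Set G) ≤ Subgroup.normalizer (R : Set G) :=
    sup_le Subgroup.le_normalizer (Subgroup.centralizer_le_normalizer _)
  have hYinv : ∀ n ∈ Subgroup.normalizer (R : Set G),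
      cj n (R ⊔ Subgroup.centralizer (R : Set G)) = R ⊔ Subgroup.centralizer (R : Set G) := by
    intro n hn
    have e : cj n (R ⊔ Subgroup.centralizer (R : Set G)) =
        cj n R ⊔ cj n (Subgroup.centralizer (R : Set G)) := Subgroup.map_sup _ _ _
    rw [e, cj_centralizer, mem_normalizer_iff_cj.1 hn]
  have hXN : (Q ⊓ Subgroup.normalizer (R : Set G)) ⊔ (R ⊔ Subgroup.centralizer (R : Set G)) ≤
      Subgroup.normalizer (R : Set G) := sup_le inf_le_right hYN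
  have hXinv : ∀ g ∈ Subgroup.normalizer (R : Set G),
      cj g ((Q ⊓ Subgroup.normalizer (R : Set G)) ⊔ (R ⊔ Subgroup.centralizer (R : Set G))) =
        (Q ⊓ Subgroup.normalizer (R : Set G)) ⊔ (R ⊔ Subgroup.centralizer (R : Set G)) := by
    intro g hg
    have hgR : lconj g (R : Set G) ⊆ P := by
      rw [← coe_cj_eq_lconj, mem_normalizer_iff_cj.1 hg]; exact hRP
    obtain ⟨x, hx, ex⟩ := hctl (R : Set G) g hRP hgR
    have hxR : x ∈ Subgroup.normalizer (R : Set G) := by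
      apply mem_normalizer_iff_cj.2
      apply SetLike.coe_injective
      rw [coe_cj_eq_lconj, lconj_congr ex, ← coe_cj_eq_lconj, mem_normalizer_iff_cj.1 hg]
    have hz : x⁻¹ * g ∈ Subgroup.centralizer (R : Set G) := by
      apply mem_centralizer_of_conj_eq
      intro r hr
      calc x⁻¹ * g * r * (x⁻¹ * g)⁻¹ = x⁻¹ * (g * r * g⁻¹) * x := by group
        _ = x⁻¹ * (x * r * x⁻¹) * x := by rw [ex r hr]
        _ = r := by group
    have e : g = x * (x⁻¹ * g) := by group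
    rw [e, cj_mul, cj_eq_self_of_mem (Subgroup.mem_sup_right (Subgroup.mem_sup_right hz))]
    have e2 : cj x ((Q ⊓ Subgroup.normalizer (R : Set G)) ⊔
        (R ⊔ Subgroup.centralizer (R : Set G))) = cj x (Q ⊓ Subgroup.normalizer (R : Set G)) ⊔
        cj x (R ⊔ Subgroup.centralizer (R : Set G)) := Subgroup.map_sup _ _ _
    rw [e2, hYinv x hxR, cj_inf, mem_normalizer_iff_cj.1 hx, cj_normalizer,
      mem_normalizer_iff_cj.1 hxR]
  have hEp : IsPGroup p ↥(Q ⊓ Subgroup.normalizer (R : Set G)) :=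
    hP.to_le (inf_le_left.trans hQP)
  have hEY : Q ⊓ Subgroup.normalizer (R : Set G) ≤
      Subgroup.normalizer ((R ⊔ Subgroup.centralizer (R : Set G) : Subgroup G) : Set G) :=
    fun n hn => mem_normalizer_iff_cj.2 (hYinv n (Subgroup.mem_inf.1 hn).2)
  have hidx : ∃ k : ℕ, (R ⊔ Subgroup.centralizer (R : Set G)).relIndex
      ((Q ⊓ Subgroup.normalizer (R : Set G)) ⊔ (R ⊔ Subgroup.centralizer (R : Set G))) = p ^ k := by
    apply relIndex_eq_pow_of_forall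
    · intro n hn; exact hYinv n (hXN hn)
    · intro x hx
      obtain ⟨e, he, y, hy, rfl⟩ := exists_mul_of_mem_sup hEY hx
      obtain ⟨k, hk⟩ := IsPGroup.iff_card.1 hEp
      refine ⟨k, ?_⟩
      have hpow : ∀ n : ℕ, ∃ y' ∈ R ⊔ Subgroup.centralizer (R : Set G),
          (e * y) ^ n = e ^ n * y' := by
        intro n
        induction n with
        | zero => exact ⟨1, one_mem _, by simp⟩
        | succ n ih =>
          obtain ⟨y', hy', e'⟩ := ih
          refine ⟨e⁻¹ * y' * e * y, mul_mem ?_ hy, ?_⟩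
          · have := conj_mem_of_mem_normalizer' (hEY he) hy'
            exact this
          · rw [pow_succ, e', pow_succ]; group
      obtain ⟨y', hy', e'⟩ := hpow (p ^ k)
      have h1 : e ^ (p ^ k) = 1 := by
        have := pow_card_eq_one' (G := ↥(Q ⊓ Subgroup.normalizer (R : Set G))) (x := ⟨e, he⟩)
        rw [hk] at this
        exact congrArg Subtype.val this
      rw [e', h1, one_mul]
      exact hy'
  have hX := hrad _ hXN hXinv le_sup_right hidx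
  have hEYle : Q ⊓ Subgroup.normalizer (R : Set G) ≤ R ⊔ Subgroup.centralizer (R : Set G) := by
    rw [← hX]; exact le_sup_left
  have hER : Q ⊓ Subgroup.normalizer (R : Set G) ≤ R := by
    have hR'P : (Q ⊓ Subgroup.normalizer (R : Set G)) ⊔ R ≤ P :=
      sup_le (inf_le_left.trans hQP) hRP
    have hcap : ((Q ⊓ Subgroup.normalizer (R : Set G)) ⊔ R) ⊓ Subgroup.centralizer (R : Set G) =
        R ⊓ Subgroup.centralizer (R : Set G) := by
      apply hcen.eq_of_le inf_le_right (hP.to_le (inf_le_left.trans hR'P))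
      exact inf_le_inf_right _ le_sup_right
    intro e he
    have hRC : R ≤ Subgroup.normalizer ((Subgroup.centralizer (R : Set G) : Subgroup G) : Set G) :=
      fun r hr => mem_normalizer_iff_cj.2 (by
        rw [cj_centralizer, mem_normalizer_iff_cj.1 (Subgroup.le_normalizer hr)])
    obtain ⟨r, hr, k, hk, hrk⟩ := exists_mul_of_mem_sup hRC (hEYle he)
    have hk' : k ∈ ((Q ⊓ Subgroup.normalizer (R : Set G)) ⊔ R) ⊓
        Subgroup.centralizer (R : Set G) := by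
      refine Subgroup.mem_inf.2 ⟨?_, hk⟩
      have : k = r⁻¹ * e := by rw [hrk]; group
      rw [this]
      exact mul_mem (inv_mem (Subgroup.mem_sup_right hr)) (Subgroup.mem_sup_left he)
    rw [hcap] at hk'
    rw [hrk]
    exact mul_mem hr (Subgroup.mem_inf.1 hk').1
  by_contra hQR
  have hne : R ≠ R ⊔ Q := by
    intro h; apply hQR
    have h2 : Q ≤ R ⊔ Q := le_sup_right
    rw [← h] at h2; exact h2
  obtain ⟨y, hy, hyR⟩ := exists_mem_normalizer_not_mem (hP.to_le (sup_le hRP hQP))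
    (le_sup_left : R ≤ R ⊔ Q) hne
  obtain ⟨r, hr, q, hq, rfl⟩ := exists_mul_of_mem_sup (hRP.trans hPQ) (Subgroup.mem_inf.1 hy).1
  have hqN : q ∈ Subgroup.normalizer (R : Set G) := by
    have : q = r⁻¹ * (r * q) := by group
    rw [this]
    exact mul_mem (inv_mem (Subgroup.le_normalizer hr)) (Subgroup.mem_inf.1 hy).2
  exact hyR (mul_mem hr (hER (Subgroup.mem_inf.2 ⟨hq, hqN⟩)))

end Cfsg.Agent.Lib.Helper51
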