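import Mathlib
import Cfsg.Agent.S0035
import Cfsg.Agent.Lib.Helper51.DStar
import Cfsg.Agent.Lib.Helper51.SylowGraph

set_option autoImplicit false

namespace Cfsg.Agent.Lib.Helper51

open scoped Pointwise

/-- If `K` is a subgroup normalized by `x`, `Z ≤ K` is central in `G`, contains all `p`-elements
of `K` and has index prime to `p` in `K`, and if `x` centralizes every `p'`-subgroup it
normalizes, then `x` centralizes `K`. -/
theorem commute_of_central_by_p' {G : Type*} [Group G] [Finite G] {p : ℕ} [Fact p.Prime]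
    (x : G) (K Z : Subgroup G) (hZc : ∀ z ∈ Z, ∀ g : G, g * z = z * g)
    (hxK : ∀ k ∈ K, x * k * x⁻¹ ∈ K)
    (hpel : ∀ k ∈ K, (∃ j : ℕ, k ^ (p ^ j) = 1) → k ∈ Z)
    (hidx : ¬ p ∣ Z.relIndex K)
    (hb : ∀ H : Subgroup G, (Nat.card H).Coprime p → (∀ h ∈ H, x * h * x⁻¹ ∈ H) →
      ∀ h ∈ H, x * h = h * x) :
    ∀ k ∈ K, x * k = k * x := by
  classical
  have hpP : p.Prime := Fact.out
  have hZcen : Z.subgroupOf K ≤ Subgroup.center ↥K := by
    intro z hz
    rw [Subgroup.mem_center_iff]
    intro g
    apply Subtype.ext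
    have := hZc (z : G) (Subgroup.mem_subgroupOf.mp hz) (g : G)
    simpa using this
  have hi_dvd : (Subgroup.center ↥K).index ∣ Z.relIndex K := Subgroup.index_dvd_of_le hZcen
  have hpi : ¬ p ∣ (Subgroup.center ↥K).index := fun h => hidx (h.trans hi_dvd)
  obtain ⟨b, e, hpe, hcard⟩ :=
    Nat.exists_eq_pow_mul_and_not_dvd (n := Nat.card K) Nat.card_pos.ne' p hpP.ne_one
  let ψ : ↥K →* ↥(Subgroup.center ↥K) :=
    MonoidHom.mk' (fun k => (MonoidHom.transferCenterPow ↥K k) ^ e) (by
      intro a b
      show (MonoidHom.transferCenterPow ↥K (a * b)) ^ e =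
        (MonoidHom.transferCenterPow ↥K a) ^ e * (MonoidHom.transferCenterPow ↥K b) ^ e
      rw [map_mul]
      have hc : Commute (MonoidHom.transferCenterPow ↥K a) (MonoidHom.transferCenterPow ↥K b) :=
        Subtype.ext (Subgroup.mem_center_iff.mp (MonoidHom.transferCenterPow ↥K b).2
          (MonoidHom.transferCenterPow ↥K a : ↥K))
      exact hc.mul_pow e)
  have hψ_apply : ∀ k : ↥K, ((ψ k : ↥K) : G) = (k : G) ^ ((Subgroup.center ↥K).index * e) := by
    intro k
    have h1 : ψ k = (MonoidHom.transferCenterPow ↥K k) ^ e := rfl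
    rw [h1, Subgroup.coe_pow, MonoidHom.transferCenterPow_apply, Subgroup.coe_pow,
      Subgroup.coe_pow, ← pow_mul]
  have hcardK : ∀ k ∈ K, k ^ Nat.card K = 1 := by
    intro k hk
    have h1 : (⟨k, hk⟩ : ↥K) ^ Nat.card K = 1 := pow_card_eq_one'
    have h2 := congrArg Subtype.val h1
    rw [Subgroup.coe_pow, Subgroup.coe_one] at h2
    exact h2
  -- the subgroup of elements of `K` killed by `i * e`
  have hmemK₁ : ∀ g : G, g ∈ ψ.ker.map K.subtype ↔
      g ∈ K ∧ g ^ ((Subgroup.center ↥K).index * e) = 1 := by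
    intro g
    rw [Subgroup.mem_map]
    constructor
    · rintro ⟨k, hk, rfl⟩
      refine ⟨k.2, ?_⟩
      rw [MonoidHom.mem_ker] at hk
      have h2 := hψ_apply k
      rw [hk] at h2
      rw [Subgroup.coe_subtype, ← h2]
      rfl
    · rintro ⟨hgK, hg⟩
      refine ⟨⟨g, hgK⟩, ?_, rfl⟩
      rw [MonoidHom.mem_ker]
      apply Subtype.ext
      apply Subtype.ext
      rw [hψ_apply]
      exact hg
  have hcop : (Nat.card ↥(ψ.ker.map K.subtype)).Coprime p := by
    rw [Nat.coprime_comm, hpP.coprime_iff_not_dvd]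
    intro hdvd
    obtain ⟨u, hu⟩ := exists_prime_orderOf_dvd_card' (G := ↥(ψ.ker.map K.subtype)) p hdvd
    have hu' : orderOf (u : G) = p := by rw [Subgroup.orderOf_coe]; exact hu
    have h3 := ((hmemK₁ (u : G)).mp u.2).2
    have h4 : p ∣ (Subgroup.center ↥K).index * e := by
      rw [← hu']
      exact orderOf_dvd_of_pow_eq_one h3
    rcases hpP.dvd_mul.mp h4 with h5 | h5
    · exact hpi h5
    · exact hpe h5
  have hnorm : ∀ h ∈ ψ.ker.map K.subtype, x * h * x⁻¹ ∈ ψ.ker.map K.subtype := by
    intro h hh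
    rw [hmemK₁] at hh ⊢
    refine ⟨hxK h hh.1, ?_⟩
    rw [conj_pow, hh.2]
    group
  have hK₁ := hb _ hcop hnorm
  intro k hk
  -- `k ^ (p ^ b)` lies in `K₁`, `k ^ e` is a `p`-element
  have h1 : x * k ^ (p ^ b) = k ^ (p ^ b) * x := by
    apply hK₁
    rw [hmemK₁]
    refine ⟨pow_mem hk _, ?_⟩
    rw [← pow_mul, ← mul_assoc, mul_comm (p ^ b), mul_assoc, ← hcard, mul_comm, pow_mul,
      hcardK k hk, one_pow]
  have h2 : x * k ^ e = k ^ e * x := by
    have hz : k ^ e ∈ Z := by
      apply hpel _ (pow_mem hk _)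
      refine ⟨b, ?_⟩
      rw [← pow_mul, mul_comm, ← hcard, hcardK k hk]
    exact hZc _ hz x
  have hcop2 : Nat.Coprime (p ^ b) e := Nat.Coprime.pow_left b (hpP.coprime_iff_not_dvd.mpr hpe)
  have hbez := Int.gcd_eq_gcd_ab (p ^ b : ℕ) (e : ℕ)
  rw [Int.gcd_natCast_natCast, hcop2.gcd_eq_one] at hbez
  have hkdecomp : k = (k ^ (p ^ b)) ^ (Int.gcdA (p ^ b : ℕ) (e : ℕ)) *
      (k ^ e) ^ (Int.gcdB (p ^ b : ℕ) (e : ℕ)) := by
    rw [← zpow_natCast k (p ^ b), ← zpow_natCast k e, ← zpow_mul, ← zpow_mul, ← zpow_add,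
      ← hbez]
    simp
  have hcen : k ∈ Subgroup.centralizer ({x} : Set G) := by
    rw [hkdecomp]
    apply mul_mem
    · apply zpow_mem
      rw [Subgroup.mem_centralizer_iff]
      intro y hy
      rw [Set.mem_singleton_iff] at hy
      rw [hy]
      exact h1
    · apply zpow_mem
      rw [Subgroup.mem_centralizer_iff]
      intro y hy
      rw [Set.mem_singleton_iff] at hy
      rw [hy]
      exact h2
  exact Subgroup.mem_centralizer_iff.mp hcen x rfl

theorem isPGroup_zpowers_of_pow {G : Type*} [Group G] {p k : ℕ} {x : G} (h : x ^ (p ^ k) = 1) :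
    IsPGroup p (Subgroup.zpowers x) := by
  rintro ⟨_, j, rfl⟩
  refine ⟨k, Subtype.ext ?_⟩
  show (x ^ j) ^ (p ^ k) = 1
  rw [← zpow_natCast, ← zpow_mul, mul_comm, zpow_mul, zpow_natCast, h, one_zpow]

universe u

/-- Main induction for the theorem on isolated `p`-elements centralizing the `p'`-subgroups
they normalize. -/
theorem isolated_central_aux (p : ℕ) [Fact p.Prime] :
    ∀ (n : ℕ) (G : Type u) [Group G] [Finite G], Nat.card G ≤ n → ∀ x : G,
    (∃ k : ℕ, x ^ (p ^ k) = 1) →
    (∀ Q : Subgroup G, IsPGroup p Q → x ∈ Q → ∀ g : G, g * x * g⁻¹ ∈ Q → g * x * g⁻¹ = x) →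
    (∀ H : Subgroup G, (Nat.card H).Coprime p → (∀ h ∈ H, x * h * x⁻¹ ∈ H) →
      ∀ h ∈ H, x * h = h * x) →
    ∀ g : G, g * x * g⁻¹ = x := by
  intro n
  induction n using Nat.strong_induction_on with
  | _ n ih =>
    intro G _ _ hn x hxp hi hb
    classical
    by_contra hcon
    push Not at hcon
    obtain ⟨g₀, hg₀⟩ := hcon
    have hpP : p.Prime := Fact.out
    obtain ⟨k₀, hk₀⟩ := hxp
    -- Step 1: two distinct conjugates generate `G`
    have hgen : ∀ g : G, g * x * g⁻¹ ≠ x → Subgroup.closure {x, g * x * g⁻¹} = ⊤ := by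
      intro g hg
      by_contra hD
      have hxD : x ∈ Subgroup.closure {x, g * x * g⁻¹} := Subgroup.subset_closure (by simp)
      have hyD : g * x * g⁻¹ ∈ Subgroup.closure {x, g * x * g⁻¹} :=
        Subgroup.subset_closure (by simp)
      have hlt : Nat.card ↥(Subgroup.closure {x, g * x * g⁻¹}) < n := by
        have h1 := card_lt_of_le_of_ne (le_top : Subgroup.closure {x, g * x * g⁻¹} ≤ ⊤) hD
        rw [Subgroup.card_top] at h1
        exact lt_of_lt_of_le h1 hn
      have hcenD := ih _ hlt ↥(Subgroup.closure {x, g * x * g⁻¹}) le_rfl ⟨x, hxD⟩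
        ⟨k₀, Subtype.ext (by rw [Subgroup.coe_pow, Subgroup.coe_one]; exact hk₀)⟩
        (by
          intro Q' hQ' hxQ' d hd
          have hQ : IsPGroup p ↥(Q'.map (Subgroup.closure {x, g * x * g⁻¹}).subtype) :=
            hQ'.map _
          have h1 := hi _ hQ ⟨_, hxQ', rfl⟩ (d : G) ⟨_, hd, by simp⟩
          exact Subtype.ext (by simpa using h1))
        (by
          intro H' hH' hnorm h' hh'
          have h1 := hb (H'.map (Subgroup.closure {x, g * x * g⁻¹}).subtype)
            (by rwa [Subgroup.card_map_of_injective (Subgroup.subtype_injective _)])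
            (by
              rintro _ ⟨h'', hh'', rfl⟩
              exact ⟨_, hnorm h'' hh'', by simp⟩)
            (h' : G) ⟨h', hh', rfl⟩
          exact Subtype.ext (by simpa using h1))
        ⟨g * x * g⁻¹, hyD⟩
      have hcomm : (g * x * g⁻¹) * x * (g * x * g⁻¹)⁻¹ = x := by
        have h1 := congrArg Subtype.val hcenD
        simpa using h1
      have hc : Commute (g * x * g⁻¹) x := by
        have h2 : (g * x * g⁻¹) * x = x * (g * x * g⁻¹) := by
          calc (g * x * g⁻¹) * x = ((g * x * g⁻¹) * x * (g * x * g⁻¹)⁻¹) * (g * x * g⁻¹) := by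
                group
            _ = x * (g * x * g⁻¹) := by rw [hcomm]
        exact h2
      have hxP : IsPGroup p (Subgroup.zpowers x) := isPGroup_zpowers_of_pow hk₀
      have hyP : IsPGroup p (Subgroup.zpowers (g * x * g⁻¹)) := by
        apply isPGroup_zpowers_of_pow (k := k₀)
        rw [conj_pow, hk₀]
        group
      have hle : Subgroup.zpowers x ≤
          Subgroup.normalizer (Subgroup.zpowers (g * x * g⁻¹) : Set G) := by
        intro a ha
        apply Subgroup.centralizer_le_normalizer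
        rw [Subgroup.mem_centralizer_iff]
        intro b hb'
        obtain ⟨i, rfl⟩ := ha
        obtain ⟨j, rfl⟩ := hb'
        exact (hc.zpow_zpow j i).eq
      have hQ := IsPGroup.to_sup_of_normal_right' hxP hyP hle
      exact hg (hi _ hQ ((le_sup_left : Subgroup.zpowers x ≤ _) (Subgroup.mem_zpowers x)) g
        ((le_sup_right : Subgroup.zpowers (g * x * g⁻¹) ≤ _) (Subgroup.mem_zpowers _)))
    -- Step 2: the centralizer of `x`
    have hmemM : ∀ g : G, g ∈ Subgroup.centralizer ({x} : Set G) ↔ g * x * g⁻¹ = x := by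
      intro g
      rw [Subgroup.mem_centralizer_iff]
      constructor
      · intro h
        have h1 := h x rfl
        rw [← h1]
        group
      · intro h y hy
        rw [Set.mem_singleton_iff] at hy
        rw [hy]
        calc x * g = (g * x * g⁻¹) * g := by rw [h]
          _ = g * x := by group
    have hMZ : ∀ g : G, g ∉ Subgroup.centralizer ({x} : Set G) →
        ∀ z ∈ Subgroup.centralizer ({x} : Set G),
        g⁻¹ * z * g ∈ Subgroup.centralizer ({x} : Set G) → z ∈ Subgroup.center G := by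
      intro g hg z hz hz'
      have hy : g * x * g⁻¹ ≠ x := fun h => hg ((hmemM g).mpr h)
      have htop := hgen g hy
      have h1 : x * z = z * x := Subgroup.mem_centralizer_iff.mp hz x rfl
      have h2 : x * (g⁻¹ * z * g) = (g⁻¹ * z * g) * x :=
        Subgroup.mem_centralizer_iff.mp hz' x rfl
      have h3 : (g * x * g⁻¹) * z = z * (g * x * g⁻¹) := by
        calc (g * x * g⁻¹) * z = g * (x * (g⁻¹ * z * g)) * g⁻¹ := by group
          _ = g * ((g⁻¹ * z * g) * x) * g⁻¹ := by rw [h2]
          _ = z * (g * x * g⁻¹) := by group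
      have hle : Subgroup.closure {x, g * x * g⁻¹} ≤ Subgroup.centralizer ({z} : Set G) := by
        rw [Subgroup.closure_le]
        intro w hw
        rw [SetLike.mem_coe, Subgroup.mem_centralizer_iff]
        intro v hv
        rw [Set.mem_singleton_iff] at hv
        rw [hv]
        rcases hw with rfl | hw
        · exact h1.symm
        · rw [Set.mem_singleton_iff] at hw
          rw [hw]
          exact h3.symm
      rw [htop] at hle
      rw [Subgroup.mem_center_iff]
      intro w
      have h4 := Subgroup.mem_centralizer_iff.mp (hle (Subgroup.mem_top w)) z rfl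
      exact h4.symm
    obtain ⟨P, hP⟩ := (isPGroup_zpowers_of_pow hk₀).exists_le_sylow
    have hxP : x ∈ (P : Subgroup G) := hP (Subgroup.mem_zpowers x)
    have hPM : (P : Subgroup G) ≤ Subgroup.centralizer ({x} : Set G) := by
      intro g hg
      rw [hmemM]
      exact hi _ P.isPGroup' hxP g (mul_mem (mul_mem hg hxP) (inv_mem hg))
    have hpM : ¬ p ∣ (Subgroup.centralizer ({x} : Set G)).index :=
      fun h => P.not_dvd_index (h.trans (Subgroup.index_dvd_of_le hPM))
    have hxZ : x ∉ Subgroup.center G := by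
      intro h
      apply hg₀
      have h1 := Subgroup.mem_center_iff.mp h g₀
      rw [h1]
      group
    have hZM : Subgroup.center G ≤ Subgroup.centralizer ({x} : Set G) := by
      intro z hz
      rw [hmemM]
      have h1 := Subgroup.mem_center_iff.mp hz x
      rw [← h1]
      group
    -- Step 3: the quotient by the centre is a Frobenius group
    have hπs : Function.Surjective (QuotientGroup.mk' (Subgroup.center G)) :=
      QuotientGroup.mk'_surjective _
    have hπker : (QuotientGroup.mk' (Subgroup.center G)).ker = Subgroup.center G :=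
      QuotientGroup.ker_mk' _
    have hπeq : ∀ a b : G, QuotientGroup.mk' (Subgroup.center G) a =
        QuotientGroup.mk' (Subgroup.center G) b → ∃ z ∈ Subgroup.center G, a = b * z := by
      intro a b h
      refine ⟨b⁻¹ * a, ?_, by group⟩
      rw [← hπker, MonoidHom.mem_ker, map_mul, map_inv, h, inv_mul_cancel]
    have hmemMbar : ∀ g : G, QuotientGroup.mk' (Subgroup.center G) g ∈
        (Subgroup.centralizer ({x} : Set G)).map (QuotientGroup.mk' (Subgroup.center G)) ↔
        g ∈ Subgroup.centralizer ({x} : Set G) := by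
      intro g
      constructor
      · rintro ⟨m, hm, hmg⟩
        obtain ⟨z, hz, rfl⟩ := hπeq g m hmg.symm
        exact mul_mem hm (hZM hz)
      · intro h
        exact ⟨g, h, rfl⟩
    have hFrob : Cfsg.IsFrobeniusComplement
        ((Subgroup.centralizer ({x} : Set G)).map (QuotientGroup.mk' (Subgroup.center G))) := by
      refine ⟨?_, ?_, ?_⟩
      · intro hbot
        have h1 : QuotientGroup.mk' (Subgroup.center G) x ∈
            (Subgroup.centralizer ({x} : Set G)).map (QuotientGroup.mk' (Subgroup.center G)) :=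
          (hmemMbar x).mpr ((hmemM x).mpr (by group))
        rw [hbot, Subgroup.mem_bot] at h1
        apply hxZ
        rw [← hπker]
        exact h1
      · intro htop
        have h1 : QuotientGroup.mk' (Subgroup.center G) g₀ ∈
            (Subgroup.centralizer ({x} : Set G)).map (QuotientGroup.mk' (Subgroup.center G)) := by
          rw [htop]
          trivial
        exact hg₀ ((hmemM g₀).mp ((hmemMbar g₀).mp h1))
      · intro gb hgb
        obtain ⟨g, rfl⟩ := hπs gb
        have hgM : g ∉ Subgroup.centralizer ({x} : Set G) := fun h => hgb ((hmemMbar g).mpr h)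
        rw [eq_bot_iff]
        intro ub hub
        obtain ⟨hu1, hu2⟩ := Subgroup.mem_inf.mp hub
        obtain ⟨u, rfl⟩ := hπs ub
        have hu1' : u ∈ Subgroup.centralizer ({x} : Set G) := (hmemMbar u).mp hu1
        rw [Subgroup.mem_pointwise_smul_iff_inv_smul_mem] at hu2
        have hu2' : g⁻¹ * u * g ∈ Subgroup.centralizer ({x} : Set G) := by
          rw [← hmemMbar]
          simpa [MulAut.smul_def, MulAut.conj_inv_apply] using hu2
        have h5 := hMZ g hgM u hu1' hu2'
        rw [Subgroup.mem_bot]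
        rw [← hπker] at h5
        exact h5
    -- Step 4: Frobenius' theorem
    obtain ⟨Nb, -, hNbn, hcompl⟩ := Cfsg.Agent.S0035.result _ hFrob
    have hNbcard : Nat.card Nb = (Subgroup.centralizer ({x} : Set G)).index := by
      rw [← hcompl.index_eq_card, Subgroup.index_map_eq _ hπs (by rw [hπker]; exact hZM)]
    have hKn : (Nb.comap (QuotientGroup.mk' (Subgroup.center G))).Normal := hNbn.comap _
    have hrel : (Subgroup.center G).relIndex (Nb.comap (QuotientGroup.mk' (Subgroup.center G))) =
        Nat.card Nb := by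
      have h1 := Subgroup.relIndex_comap (⊥ : Subgroup (G ⧸ Subgroup.center G))
        (QuotientGroup.mk' (Subgroup.center G))
        (Nb.comap (QuotientGroup.mk' (Subgroup.center G)))
      rw [MonoidHom.comap_bot, hπker] at h1
      rw [h1, Subgroup.map_comap_eq_self_of_surjective hπs, Subgroup.relIndex_bot_left]
    have hKcent : ∀ k ∈ Nb.comap (QuotientGroup.mk' (Subgroup.center G)), x * k = k * x := by
      refine commute_of_central_by_p' (p := p) x _ (Subgroup.center G) ?_ ?_ ?_ ?_ hb
      · intro z hz g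
        exact Subgroup.mem_center_iff.mp hz g
      · intro k hk
        exact hKn.conj_mem k hk x
      · rintro k hk ⟨j, hj⟩
        rw [← hπker, MonoidHom.mem_ker]
        have h1 : (QuotientGroup.mk' (Subgroup.center G) k) ^ (p ^ j) = 1 := by
          rw [← map_pow, hj, map_one]
        have h2 : orderOf (QuotientGroup.mk' (Subgroup.center G) k) ∣ p ^ j :=
          orderOf_dvd_of_pow_eq_one h1
        have hk' : QuotientGroup.mk' (Subgroup.center G) k ∈ Nb := hk
        have h3 : orderOf (QuotientGroup.mk' (Subgroup.center G) k) ∣ Nat.card Nb := by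
          have h4 := orderOf_dvd_natCard (⟨_, hk'⟩ : ↥Nb)
          rwa [Subgroup.orderOf_mk] at h4
        have hcop : Nat.Coprime (p ^ j) (Nat.card Nb) := by
          rw [hNbcard]
          exact Nat.Coprime.pow_left j (hpP.coprime_iff_not_dvd.mpr hpM)
        have h5 : orderOf (QuotientGroup.mk' (Subgroup.center G) k) ∣
            Nat.gcd (p ^ j) (Nat.card Nb) := Nat.dvd_gcd h2 h3
        rw [hcop.gcd_eq_one] at h5
        exact orderOf_eq_one_iff.mp (Nat.dvd_one.mp h5)
      · rw [hrel, hNbcard]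
        exact hpM
    have hNbM : Nb ≤ (Subgroup.centralizer ({x} : Set G)).map
        (QuotientGroup.mk' (Subgroup.center G)) := by
      intro nb hnb
      obtain ⟨k, rfl⟩ := hπs nb
      rw [hmemMbar, hmemM]
      have h1 := hKcent k hnb
      calc k * x * k⁻¹ = (x * k) * k⁻¹ := by rw [h1]
        _ = x := by group
    have hNbbot : Nb = ⊥ := eq_bot_iff.mpr (hcompl.disjoint le_rfl hNbM)
    have h6 := hcompl.sup_eq_top
    rw [hNbbot, bot_sup_eq] at h6
    exact hFrob.2.1 h6

/-- Let `S` be a Sylow `p`-subgroup of `G` and `x ∈ S` such that `x` is the only conjugate of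
`x` in `S` and `x` centralizes every `p'`-subgroup it normalizes. Then `x` is central. -/
theorem isolated_central {G : Type u} [Group G] [Finite G] {p : ℕ} [Fact p.Prime]
    (S : Sylow p G) (x : G) (hx : x ∈ S)
    (hU : ∀ g : G, g⁻¹ * x * g ∈ S → g⁻¹ * x * g = x)
    (hb : ∀ H : Subgroup G, (Nat.card H).Coprime p → (∀ h ∈ H, x * h * x⁻¹ ∈ H) →
      ∀ h ∈ H, x * h = h * x) :
    x ∈ Subgroup.center G := by
  have hxp : ∃ k : ℕ, x ^ (p ^ k) = 1 := by
    obtain ⟨k, hk⟩ := S.isPGroup' ⟨x, hx⟩
    refine ⟨k, ?_⟩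
    have h1 := congrArg Subtype.val hk
    rw [Subgroup.coe_pow, Subgroup.coe_one] at h1
    exact h1
  have hi : ∀ Q : Subgroup G, IsPGroup p Q → x ∈ Q → ∀ g : G, g * x * g⁻¹ ∈ Q →
      g * x * g⁻¹ = x := by
    intro Q hQ hxQ g hg
    obtain ⟨S', hS'⟩ := hQ.exists_le_sylow
    obtain ⟨h, rfl⟩ := MulAction.exists_smul_eq G S S'
    have h1 : x ∈ (h • S : Sylow p G) := hS' hxQ
    have h2 : g * x * g⁻¹ ∈ (h • S : Sylow p G) := hS' hg
    rw [sylow_mem_smul] at h1 h2
    have e1 := hU h h1
    have h2' : (g⁻¹ * h)⁻¹ * x * (g⁻¹ * h) ∈ S := by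
      have e : (g⁻¹ * h)⁻¹ * x * (g⁻¹ * h) = h⁻¹ * (g * x * g⁻¹) * h := by group
      rw [e]
      exact h2
    have e2 := hU (g⁻¹ * h) h2'
    calc g * x * g⁻¹ = h * ((g⁻¹ * h)⁻¹ * x * (g⁻¹ * h)) * h⁻¹ := by group
      _ = h * x * h⁻¹ := by rw [e2]
      _ = h * (h⁻¹ * x * h) * h⁻¹ := by rw [e1]
      _ = x := by group
  have h3 := isolated_central_aux p (Nat.card G) G le_rfl x hxp hi hb
  rw [Subgroup.mem_center_iff]
  intro g
  calc g * x = (g * x * g⁻¹) * g := by group
    _ = x * g := by rw [h3 g]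

end Cfsg.Agent.Lib.Helper51
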