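import Mathlib
import Cfsg.Agent.Lib.Helper51.CentricLG

/-!
# Local-to-global for a pair of functors (a conjugacy functor and a central functor)
-/

set_option autoImplicit false

namespace Cfsg.Agent.Lib.Helper51

open Cfsg Cfsg.Agent.Lib.Helper33

/-- The step predicate of the pair `(W, V)`: normalise `W(T)` or centralise `V(T)`. -/
def PairSt {G : Type*} [Group G] (W V : Subgroup G → Subgroup G) (T : Subgroup G) (y : G) : Prop :=
  y ∈ Subgroup.normalizer ((W T : Subgroup G) : Set G) ∨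
    y ∈ Subgroup.centralizer ((V T : Subgroup G) : Set G)

theorem pair_local_to_global {G : Type*} [Group G] [Finite G] {p : ℕ} [Fact p.Prime] (hdiv : p ∣ Nat.card G) (P : Sylow p G) (W V : Subgroup G → Subgroup G) (hW : Cfsg.IsConjugacyFunctor p W) (hV : Cfsg.IsConjugacyFunctor p V) (hWZ : ∀ H : Subgroup G, IsPGroup p ↥H → H ⊓ Subgroup.centralizer ((H : Subgroup G) : Set G) ≤ W H) (hVZ : ∀ H : Subgroup G, IsPGroup p ↥H → V H ≤ H ⊓ Subgroup.centralizer ((H : Subgroup G) : Set G)) (hVmono : ∀ H K : Subgroup G, IsPGroup p ↥H → IsPGroup p ↥K → H ≠ ⊥ → K ≠ ⊥ → H ⊓ Subgroup.centralizer ((H : Subgroup G) : Set G) ≤ K ⊓ Subgroup.centralizer ((K : Subgroup G) : Set G) → V H ≤ V K) (hloc : ∀ H : Subgroup G, (P : Subgroup G) ⊓ Subgroup.centralizer (((P : Subgroup G) : Subgroup G) : Set G) ≤ H → H ≤ (P : Subgroup G) → ∃ Q : Subgroup G, Q ≤ Subgroup.normalizer ((H : Subgroup G) : Set G) ∧ IsPGroup p ↥Q ∧ ¬ p ∣ (Q).relIndex (Subgroup.normalizer ((H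 : Subgroup G) : Set G)) ∧ ∀ (X : Set G) (a : G), X ⊆ Q → a ∈ Subgroup.normalizer ((H : Subgroup G) : Set G) → (fun x => a⁻¹ * x * a) '' X ⊆ Q → ∃ c ∈ Subgroup.normalizer ((H : Subgroup G) : Set G) ⊓ Subgroup.centralizer X, ∃ (n : ℕ) (b : Fin n → G), (∀ i, b i ∈ Subgroup.normalizer ((H : Subgroup G) : Set G) ⊓ Subgroup.normalizer ((W Q : Subgroup G) : Set G) ∨ b i ∈ Subgroup.normalizer ((H : Subgroup G) : Set G) ⊓ Subgroup.centralizer ((V Q : Subgroup G) : Set G)) ∧ a = c * (List.ofFn b).prod ∧ ∀ k : ℕ, k ≤ n → (fun x => (((List.ofFn b).take k).prod)⁻¹ * x * ((List.ofFn b).take k).prod) '' ((fun x => c⁻¹ * x * c) '' X) ⊆ Q) : ∃ Q : Subgroup G, IsPGroup p ↥Q ∧ ¬ p ∣ Q.index ∧ ∀ (X : Set G) (a : G), X ⊆ Q → (fun x => a⁻¹ * x * a) '' X ⊆ Q → ∃ c ∈ Subgroup.centralizer X, ∃ (n : ℕ) (b : Fin n → G), (∀ i, b i ∈ ⊤ ⊓ Subgroup.normalizer ((W Q : Subgroup G) : Set G) ∨ b i ∈ ⊤ ⊓ Subgroup.centralizer ((V Q : Subgroup G) : Set G)) ∧ a = c * (List.ofFn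 b).prod ∧ ∀ k : ℕ, k ≤ n → (fun x => (((List.ofFn b).take k).prod)⁻¹ * x * ((List.ofFn b).take k).prod) '' ((fun x => c⁻¹ * x * c) '' X) ⊆ Q := by
  have hS := sylIn_top P
  have hSti : ∀ (T : Subgroup G) (y : G), PairSt W V T y → PairSt W V T y⁻¹ := by
    rintro T y (h | h)
    · exact Or.inl (inv_mem h)
    · exact Or.inr (inv_mem h)
  have hStc : ∀ (k : G) (T : Subgroup G) (y : G), IsPGroup p T → PairSt W V T y →
      PairSt W V (cj k T) (k * y * k⁻¹) := by
    rintro k T y hT (h | h)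
    · left
      rw [cf_cj_eq hW hT, ← cj_normalizer]
      exact conj_mem_cj h
    · right
      rw [cf_cj_eq hV hT, ← cj_centralizer]
      exact conj_mem_cj h
  have hPne : (P : Subgroup G) ≠ ⊥ := P.ne_bot_of_dvd_card hdiv
  have hZne : ∀ Q : Subgroup G,
      (P : Subgroup G) ⊓ Subgroup.centralizer ((P : Subgroup G) : Set G) ≤ Q → Q ≠ ⊥ := by
    intro Q hQ hbot
    have hnt : Nontrivial ↥(P : Subgroup G) := (Subgroup.nontrivial_iff_ne_bot _).2 hPne
    have hc : Nontrivial (Subgroup.center ↥(P : Subgroup G)) := P.2.center_nontrivial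
    obtain ⟨z, hz⟩ := exists_ne (1 : Subgroup.center ↥(P : Subgroup G))
    have hzC : ((z : ↥(P : Subgroup G)) : G) ∈
        Subgroup.centralizer ((P : Subgroup G) : Set G) := by
      rw [Subgroup.mem_centralizer_iff]
      intro g hg
      have := Subgroup.mem_center_iff.1 z.2 ⟨g, hg⟩
      exact congrArg Subtype.val this
    have hzQ : ((z : ↥(P : Subgroup G)) : G) ∈ Q :=
      hQ (Subgroup.mem_inf.2 ⟨(z : ↥(P : Subgroup G)).2, hzC⟩)
    rw [hbot, Subgroup.mem_bot] at hzQ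
    exact hz (Subtype.ext (Subtype.ext hzQ))
  have hStQ : ∀ Q : Subgroup G,
      (P : Subgroup G) ⊓ Subgroup.centralizer ((P : Subgroup G) : Set G) ≤ Q →
      Q ≤ (P : Subgroup G) → ∀ y, PairSt W V Q y →
      y ∈ Subgroup.normalizer ((W Q : Subgroup G) : Set G) ∨ PairSt W V (P : Subgroup G) y := by
    rintro Q hZQ hQP y (h | h)
    · exact Or.inl h
    · right; right
      have hVle : V (P : Subgroup G) ≤ V Q := hVmono (P : Subgroup G) Q P.2 (P.2.to_le hQP) hPne
        (hZne Q hZQ) (le_inf hZQ (inf_le_right.trans (Subgroup.centralizer_le hQP)))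
      exact Subgroup.centralizer_le hVle h
  have hlocC : ∀ T : Subgroup G,
      (P : Subgroup G) ⊓ Subgroup.centralizer ((P : Subgroup G) : Set G) ≤ T →
      T ≤ (P : Subgroup G) →
      ∃ Q, SylIn p Q (Subgroup.normalizer (T : Set G)) ∧
        CCtl (PairSt W V) (Subgroup.normalizer (T : Set G)) Q := by
    intro T hZT hTP
    obtain ⟨Q, hQN, hQp, hQi, hQ⟩ := hloc T hZT hTP
    refine ⟨Q, ⟨hQN, hQp, hQi⟩, ?_⟩
    intro A h hh hA hhA
    have hA' : (fun x => h⁻¹⁻¹ * x * h⁻¹) '' A ⊆ Q := by rw [inv_inv]; exact hhA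
    obtain ⟨c, hc, n, b, hb, hprod, htake⟩ := hQ A h⁻¹ hA (inv_mem hh) hA'
    obtain ⟨hcN, hcC⟩ := Subgroup.mem_inf.1 hc
    have hcA : (fun x => c⁻¹ * x * c) '' A = A := by
      have : ∀ x ∈ A, c⁻¹ * x * c = x := by
        intro x hx
        have := Subgroup.mem_centralizer_iff.1 hcC x hx
        rw [mul_assoc, this, ← mul_assoc, inv_mul_cancel, one_mul]
      rw [Set.image_congr this, Set.image_id']
    have hrel : CRel (PairSt W V) (Subgroup.normalizer (T : Set G)) Q A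
        ((List.ofFn b).prod)⁻¹ := by
      apply CRel.of_list
      · intro y hy
        obtain ⟨i, rfl⟩ := (List.mem_ofFn' b y).1 hy
        rcases hb i with h1 | h1
        · exact ⟨(Subgroup.mem_inf.1 h1).1, Or.inl (inv_mem (Subgroup.mem_inf.1 h1).2)⟩
        · exact ⟨(Subgroup.mem_inf.1 h1).1, Or.inr (inv_mem (Subgroup.mem_inf.1 h1).2)⟩
      · intro k hk
        rw [List.length_ofFn] at hk
        have := htake k hk
        rw [hcA] at this
        rw [lconj_def, inv_inv]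
        exact this
    refine ⟨((List.ofFn b).prod)⁻¹, hrel, ?_⟩
    intro a ha
    have e : ((List.ofFn b).prod)⁻¹ = h * c := by
      have : (List.ofFn b).prod = c⁻¹ * h⁻¹ := by rw [hprod]; group
      rw [this]; group
    rw [e]
    have := Subgroup.mem_centralizer_iff.1 hcC a ha
    calc h * c * a * (h * c)⁻¹ = h * (c * a) * c⁻¹ * h⁻¹ := by group
      _ = h * (a * c) * c⁻¹ * h⁻¹ := by rw [this]
      _ = h * a * h⁻¹ := by group
  have key := cctl_of_local_centric hS hW hWZ hSti hStc (fun y hy => Or.inl hy) hStQ hlocC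
  refine ⟨P, P.2, P.not_dvd_index, ?_⟩
  intro X a hX haX
  have haX' : lconj a⁻¹ X ⊆ (P : Subgroup G) := by rw [lconj_def, inv_inv]; exact haX
  obtain ⟨c₁, hc₁, ec₁⟩ := key X a⁻¹ (Subgroup.mem_top _) hX haX'
  obtain ⟨l, hl, hprod, htake⟩ := hc₁.to_list hSti
  have hcen : a * c₁ ∈ Subgroup.centralizer X := by
    rw [Subgroup.mem_centralizer_iff]
    intro x hx
    have := ec₁ x hx
    rw [inv_inv] at this
    calc x * (a * c₁) = a * (a⁻¹ * x * a) * c₁ := by group
      _ = a * (c₁ * x * c₁⁻¹) * c₁ := by rw [this]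
      _ = a * c₁ * x := by group
  refine ⟨a * c₁, hcen, l.length, l.get, ?_, ?_, ?_⟩
  · intro i
    rcases (hl (l.get i) (List.get_mem l i)).2 with h | h
    · exact Or.inl (Subgroup.mem_inf.2 ⟨Subgroup.mem_top _, h⟩)
    · exact Or.inr (Subgroup.mem_inf.2 ⟨Subgroup.mem_top _, h⟩)
  · rw [List.ofFn_get, hprod]; group
  · intro k hk
    rw [List.ofFn_get]
    have hcX : (fun x => (a * c₁)⁻¹ * x * (a * c₁)) '' X = X := by
      have : ∀ x ∈ X, (a * c₁)⁻¹ * x * (a * c₁) = x := by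
        intro x hx
        have := Subgroup.mem_centralizer_iff.1 hcen x hx
        rw [mul_assoc, this, ← mul_assoc, inv_mul_cancel, one_mul]
      rw [Set.image_congr this, Set.image_id']
    rw [hcX]
    have := htake k hk
    rw [lconj_def, inv_inv] at this
    exact this

end Cfsg.Agent.Lib.Helper51
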