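import Mathlib
import Cfsg.Prelude.Def_SylowChains
import Cfsg.Prelude.Def_Transfer
import Cfsg.Agent.Lib.Helper51.Basic
import Cfsg.Agent.Lib.Helper51.SylowGraph
import Cfsg.Agent.Lib.Helper10.ElemAb

set_option autoImplicit false

namespace Cfsg.Agent.Lib.Helper51

open Relation

/-- In a classical strongly `p`-embedded subgroup `H`, an element conjugating an element of
order `p` of `H` into `H` lies in `H`. -/
theorem spe_mem_of_conj_mem {G : Type*} [Group G] [Finite G] {p : ℕ} [Fact p.Prime]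
    {H : Subgroup G}
    (hse : ∀ g : G, g ∉ H → ¬ p ∣ Nat.card ↥(H ⊓ H.map (MulAut.conj g).toMonoidHom))
    {a : G} (ha : a ∈ H) (hord : orderOf a = p) {g : G} (hg : g * a * g⁻¹ ∈ H) : g ∈ H := by
  by_contra hgH
  apply hse g hgH
  have hmem : g * a * g⁻¹ ∈ H ⊓ H.map (MulAut.conj g).toMonoidHom :=
    ⟨hg, a, ha, by simp [MulAut.conj_apply]⟩
  have hord' : orderOf (g * a * g⁻¹) = p := by
    rw [← hord]
    have := orderOf_injective (MulAut.conj g).toMonoidHom (MulAut.conj g).injective a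
    simpa [MulAut.conj_apply] using this
  have h1 := orderOf_dvd_natCard (⟨_, hmem⟩ : ↥(H ⊓ H.map (MulAut.conj g).toMonoidHom))
  rw [Subgroup.orderOf_mk, hord'] at h1
  exact h1

/-- Conditional form of the theorem on normal subgroups of order divisible by `p` in a group
with disconnected Sylow graph: it assumes the generation of a `p'`-group by the centralizers
of the subgroups of index at most `p` of a noncyclic elementary abelian `p`-group acting on it. -/
theorem dvd_card_inf_of_not_conn_of_gen {G : Type*} [Group G] [Finite G] (p : ℕ) [Fact p.Prime]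
    (hgen : ∀ (A X : Subgroup G), Cfsg.IsElementaryAbelian p A → p ^ 2 ≤ Nat.card ↥A →
      ¬ p ∣ Nat.card ↥X → A ≤ Subgroup.normalizer (X : Set G) →
      X = ⨆ B : {B : Subgroup G // B ≤ A ∧ B.relIndex A ≤ p},
        X ⊓ Subgroup.centralizer ((B : Subgroup G) : Set G))
    (hG : ¬ Cfsg.IsSylowChainConnected p G)
    (N M : Subgroup G) [N.Normal] [M.Normal] (hN : p ∣ Nat.card N) (hM : p ∣ Nat.card M) :
    p ∣ Nat.card ↥(N ⊓ M) := by
  classical
  have hpP : p.Prime := Fact.out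
  by_contra hK
  rw [isSylowChainConnected_iff] at hG
  push Not at hG
  obtain ⟨S₀, T₀, hST⟩ := hG
  obtain ⟨H, hS₀H, hHtop, hpH, hse⟩ := exists_spe_of_not_conn hST
  -- elements of order `p` in `S₀ ∩ N` and `S₀ ∩ M`
  have hSN : p ∣ Nat.card ↥((S₀ : Subgroup G) ⊓ N) := by
    have h1 := relIndex_mul_card_inf (S₀ : Subgroup G) N
    have h2 := not_dvd_relIndex_normal S₀ N
    rw [← h1] at hN
    exact (hpP.dvd_mul.mp hN).resolve_left h2
  have hSM : p ∣ Nat.card ↥((S₀ : Subgroup G) ⊓ M) := by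
    have h1 := relIndex_mul_card_inf (S₀ : Subgroup G) M
    have h2 := not_dvd_relIndex_normal S₀ M
    rw [← h1] at hM
    exact (hpP.dvd_mul.mp hM).resolve_left h2
  obtain ⟨x, hx', hxS, hxN⟩ : ∃ x : G, orderOf x = p ∧ x ∈ (S₀ : Subgroup G) ∧ x ∈ N := by
    obtain ⟨x', hx'⟩ := exists_prime_orderOf_dvd_card' (G := ↥((S₀ : Subgroup G) ⊓ N)) p hSN
    exact ⟨x', by rw [Subgroup.orderOf_coe]; exact hx', (Subgroup.mem_inf.mp x'.2).1,
      (Subgroup.mem_inf.mp x'.2).2⟩
  obtain ⟨y, hy', hyS, hyM⟩ : ∃ y : G, orderOf y = p ∧ y ∈ (S₀ : Subgroup G) ∧ y ∈ M := by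
    obtain ⟨y', hy'⟩ := exists_prime_orderOf_dvd_card' (G := ↥((S₀ : Subgroup G) ⊓ M)) p hSM
    exact ⟨y', by rw [Subgroup.orderOf_coe]; exact hy', (Subgroup.mem_inf.mp y'.2).1,
      (Subgroup.mem_inf.mp y'.2).2⟩
  have hSK : (S₀ : Subgroup G) ⊓ (N ⊓ M) = ⊥ := by
    have hp : IsPGroup p ↥((S₀ : Subgroup G) ⊓ (N ⊓ M)) := S₀.isPGroup'.to_le inf_le_left
    rcases hp.card_eq_or_dvd with h1 | h1
    · exact Subgroup.card_eq_one.mp h1
    · exact absurd (h1.trans (Subgroup.card_dvd_of_le inf_le_right)) hK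
  have hxy : x * y = y * x := by
    have hmem : x * y * x⁻¹ * y⁻¹ ∈ (S₀ : Subgroup G) ⊓ (N ⊓ M) := by
      refine Subgroup.mem_inf.mpr ⟨?_, Subgroup.mem_inf.mpr ⟨?_, ?_⟩⟩
      · exact mul_mem (mul_mem (mul_mem hxS hyS) (inv_mem hxS)) (inv_mem hyS)
      · have h1 : y * x⁻¹ * y⁻¹ ∈ N := (inferInstance : N.Normal).conj_mem _ (inv_mem hxN) y
        have e : x * y * x⁻¹ * y⁻¹ = x * (y * x⁻¹ * y⁻¹) := by group
        rw [e]
        exact mul_mem hxN h1
      · have h1 : x * y * x⁻¹ ∈ M := (inferInstance : M.Normal).conj_mem _ hyM x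
        exact mul_mem h1 (inv_mem hyM)
    rw [hSK, Subgroup.mem_bot] at hmem
    have e : x * y = (x * y * x⁻¹ * y⁻¹) * (y * x) := by group
    rw [e, hmem, one_mul]
  have hxp : x ^ p = 1 := by rw [← hx']; exact pow_orderOf_eq_one x
  have hyp : y ^ p = 1 := by rw [← hy']; exact pow_orderOf_eq_one y
  -- the elementary abelian group `A = ⟨x, y⟩`
  have hcomm : ∀ a ∈ Subgroup.zpowers x, ∀ b ∈ Subgroup.zpowers y, a * b = b * a := by
    rintro _ ⟨i, rfl⟩ _ ⟨j, rfl⟩
    exact ((Commute.zpow_zpow (show Commute x y from hxy)) i j).eq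
  have hA : Cfsg.IsElementaryAbelian p (Subgroup.zpowers x ⊔ Subgroup.zpowers y) :=
    Cfsg.Agent.Lib.Helper10.isElementaryAbelian_sup
      (Cfsg.Agent.Lib.Helper10.isElementaryAbelian_zpowers hxp)
      (Cfsg.Agent.Lib.Helper10.isElementaryAbelian_zpowers hyp) hcomm
  have hzx : Subgroup.zpowers x ≤ (S₀ : Subgroup G) ⊓ N :=
    Subgroup.zpowers_le.mpr ⟨hxS, hxN⟩
  have hzy : Subgroup.zpowers y ≤ (S₀ : Subgroup G) ⊓ M :=
    Subgroup.zpowers_le.mpr ⟨hyS, hyM⟩
  have hinf : Subgroup.zpowers x ⊓ Subgroup.zpowers y = ⊥ := by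
    rw [eq_bot_iff, ← hSK]
    exact le_inf (inf_le_left.trans (hzx.trans inf_le_left))
      (le_inf (inf_le_left.trans (hzx.trans inf_le_right))
        (inf_le_right.trans (hzy.trans inf_le_right)))
  have hA2 : p ^ 2 ≤ Nat.card ↥(Subgroup.zpowers x ⊔ Subgroup.zpowers y) := by
    have h1 := card_mul_card_le_card_sup_mul_card_inf (Subgroup.zpowers x) (Subgroup.zpowers y)
    rw [hinf, Subgroup.card_bot, mul_one, Nat.card_zpowers, Nat.card_zpowers, hx', hy'] at h1
    rw [pow_two]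
    exact h1
  have hAS : Subgroup.zpowers x ⊔ Subgroup.zpowers y ≤ (S₀ : Subgroup G) :=
    sup_le (hzx.trans inf_le_left) (hzy.trans inf_le_left)
  have hAH : Subgroup.zpowers x ⊔ Subgroup.zpowers y ≤ H := hAS.trans hS₀H
  have hAord : ∀ b ∈ Subgroup.zpowers x ⊔ Subgroup.zpowers y, b ≠ 1 → orderOf b = p := by
    intro b hb hb1
    exact orderOf_eq_prime (hA.2 b hb) hb1
  have hxH : x ∈ H := hS₀H hxS
  have hyH : y ∈ H := hS₀H hyS
  -- `K = N ∩ M ≤ H`
  have hKH : N ⊓ M ≤ H := by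
    have hnorm : Subgroup.zpowers x ⊔ Subgroup.zpowers y ≤
        Subgroup.normalizer ((N ⊓ M : Subgroup G) : Set G) := by
      rw [Subgroup.normalizer_eq_top]
      exact le_top
    rw [hgen _ (N ⊓ M) hA hA2 hK hnorm]
    apply iSup_le
    rintro ⟨B, hBA, hBi⟩
    intro k hk
    have hBne : B ≠ ⊥ := by
      rintro rfl
      rw [Subgroup.relIndex_bot_left] at hBi
      have h1 : p < p ^ 2 := by
        rw [pow_two]
        exact lt_mul_of_one_lt_left hpP.pos hpP.one_lt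
      omega
    obtain ⟨b, hb1⟩ := (Subgroup.ne_bot_iff_exists_ne_one).mp hBne
    have hbB : (b : G) ∈ B := b.2
    have hb1' : (b : G) ≠ 1 := fun h => hb1 (Subtype.ext h)
    have hkc : (b : G) * k = k * (b : G) := Subgroup.mem_centralizer_iff.mp hk.2 _ hbB
    have hconj : k * (b : G) * k⁻¹ ∈ H := by
      rw [← hkc]
      have e : (b : G) * k * k⁻¹ = b := by group
      rw [e]
      exact hAH (hBA hbB)
    exact spe_mem_of_conj_mem hse (hAH (hBA hbB)) (hAord _ (hBA hbB) hb1') hconj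
  -- `N ≤ H`
  have hNH : N ≤ H := by
    intro n hn
    have h1 : n * y * n⁻¹ * y⁻¹ ∈ N ⊓ M := by
      refine Subgroup.mem_inf.mpr ⟨?_, ?_⟩
      · have h2 : y * n⁻¹ * y⁻¹ ∈ N := (inferInstance : N.Normal).conj_mem _ (inv_mem hn) y
        have e : n * y * n⁻¹ * y⁻¹ = n * (y * n⁻¹ * y⁻¹) := by group
        rw [e]
        exact mul_mem hn h2
      · have h2 : n * y * n⁻¹ ∈ M := (inferInstance : M.Normal).conj_mem _ hyM n
        exact mul_mem h2 (inv_mem hyM)
    have h2 : n * y * n⁻¹ ∈ H := by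
      have e : n * y * n⁻¹ = (n * y * n⁻¹ * y⁻¹) * y := by group
      rw [e]
      exact mul_mem (hKH h1) hyH
    exact spe_mem_of_conj_mem hse hyH hy' h2
  -- `G = H`
  apply hHtop
  rw [eq_top_iff]
  intro g _
  have h1 : g * x * g⁻¹ ∈ N := (inferInstance : N.Normal).conj_mem _ hxN g
  exact spe_mem_of_conj_mem hse hxH hx' (hNH h1)

end Cfsg.Agent.Lib.Helper51
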