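import Mathlib
import Cfsg.Prelude.Def_SylowChains
import Cfsg.Prelude.Def_Transfer
import Cfsg.Prelude.Def_Local
import Cfsg.Prelude.Def_Solvable
import Cfsg.Agent.Lib.Helper51.Basic
import Cfsg.Agent.Lib.Helper51.SylowGraph
import Cfsg.Agent.Lib.Helper51.SpeNormal
import Cfsg.Agent.Lib.Helper10.ElemAb
import Cfsg.Agent.S1324
import Cfsg.Agent.S0016

set_option autoImplicit false

namespace Cfsg.Agent.Lib.Helper51

open Relation

/-- In a group with a classical strongly `p`-embedded subgroup `H`: a `p'`-subgroup `X`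
normalized by a noncyclic elementary abelian `p`-subgroup `A` of `H` lies in `H`. -/
theorem spe_le_of_elemAb {G : Type*} [Group G] [Finite G] {p : ℕ} [Fact p.Prime]
    {H : Subgroup G}
    (hse : ∀ g : G, g ∉ H → ¬ p ∣ Nat.card ↥(H ⊓ H.map (MulAut.conj g).toMonoidHom))
    (A X : Subgroup G) (hA : Cfsg.IsElementaryAbelian p A) (hA2 : p ^ 2 ≤ Nat.card ↥A)
    (hAH : A ≤ H) (hX : ¬ p ∣ Nat.card ↥X) (hAX : A ≤ Subgroup.normalizer (X : Set G)) :
    X ≤ H := by
  have hpP : p.Prime := Fact.out
  rw [Cfsg.Agent.S1324.result p A X hA hA2 hX hAX]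
  apply iSup_le
  rintro ⟨B, hBA, hBi⟩
  intro k hk
  have hBne : B ≠ ⊥ := by
    rintro rfl
    rw [Subgroup.relIndex_bot_left] at hBi
    have h1 : p < p ^ 2 := by
      rw [pow_two]
      exact lt_mul_of_one_lt_left hpP.pos hpP.one_lt
    omega
  obtain ⟨b, hb1⟩ := (Subgroup.ne_bot_iff_exists_ne_one).mp hBne
  have hbB : (b : G) ∈ B := b.2
  have hb1' : (b : G) ≠ 1 := fun h => hb1 (Subtype.ext h)
  have hkc : (b : G) * k = k * (b : G) := Subgroup.mem_centralizer_iff.mp hk.2 _ hbB
  have hconj : k * (b : G) * k⁻¹ ∈ H := by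
    rw [← hkc]
    have e : (b : G) * k * k⁻¹ = b := by group
    rw [e]
    exact hAH (hBA hbB)
  exact spe_mem_of_conj_mem hse (hAH (hBA hbB)) (orderOf_eq_prime (hA.2 _ (hBA hbB)) hb1') hconj

/-- A subgroup of prime order is generated by an element of that order. -/
theorem exists_eq_zpowers_of_card_prime {Q : Type*} [Group Q] [Finite Q] {p : ℕ} [Fact p.Prime]
    (H : Subgroup Q) (hH : Nat.card H = p) : ∃ h : Q, orderOf h = p ∧ H = Subgroup.zpowers h := by
  obtain ⟨h', hh'⟩ := exists_prime_orderOf_dvd_card' (G := ↥H) p (by rw [hH])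
  refine ⟨h', by rw [Subgroup.orderOf_coe]; exact hh', ?_⟩
  have hle : Subgroup.zpowers (h' : Q) ≤ H := Subgroup.zpowers_le.mpr h'.2
  have hc : Nat.card (Subgroup.zpowers (h' : Q)) = p := by
    rw [Nat.card_zpowers, Subgroup.orderOf_coe]; exact hh'
  exact (Subgroup.eq_of_le_of_card_ge hle (by rw [hH, hc])).symm

/-- A finite `p`-group without elementary abelian subgroups of order at least `p²` has at most
one subgroup of order `p`. -/
theorem unique_card_prime_of_no_rank_two {Q : Type*} [Group Q] [Finite Q] {p : ℕ} [Fact p.Prime]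
    (hQ : IsPGroup p Q)
    (hno : ∀ A : Subgroup Q, Cfsg.IsElementaryAbelian p A → Nat.card A < p ^ 2) :
    ∀ H K : Subgroup Q, Nat.card H = p → Nat.card K = p → H = K := by
  have hpP : p.Prime := Fact.out
  intro H K hH hK
  have hnt : Nontrivial Q := by
    rw [← Finite.one_lt_card_iff_nontrivial]
    calc 1 < p := hpP.one_lt
      _ = Nat.card H := hH.symm
      _ ≤ Nat.card Q := Subgroup.card_le_card_group H
  have hcnt : Nontrivial (Subgroup.center Q) := hQ.center_nontrivial
  have hdvd : p ∣ Nat.card (Subgroup.center Q) := by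
    rcases (hQ.to_subgroup (Subgroup.center Q)).card_eq_or_dvd with h1 | h1
    · exact absurd h1 (Finite.one_lt_card_iff_nontrivial.mpr hcnt).ne'
    · exact h1
  obtain ⟨z', hz'⟩ := exists_prime_orderOf_dvd_card' (G := ↥(Subgroup.center Q)) p hdvd
  have hz : orderOf (z' : Q) = p := by rw [Subgroup.orderOf_coe]; exact hz'
  have hzc : ∀ g : Q, g * (z' : Q) = (z' : Q) * g := Subgroup.mem_center_iff.mp z'.2
  have key : ∀ H : Subgroup Q, Nat.card H = p → H = Subgroup.zpowers (z' : Q) := by
    intro H hH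
    by_contra hne
    obtain ⟨h, hh, rfl⟩ := exists_eq_zpowers_of_card_prime H hH
    have hZc : Nat.card (Subgroup.zpowers (z' : Q)) = p := by rw [Nat.card_zpowers, hz]
    have hinf : Subgroup.zpowers h ⊓ Subgroup.zpowers (z' : Q) = ⊥ := by
      have hd : Nat.card ↥(Subgroup.zpowers h ⊓ Subgroup.zpowers (z' : Q)) ∣ p := by
        rw [← hH]
        exact Subgroup.card_dvd_of_le inf_le_left
      rcases (Nat.dvd_prime hpP).mp hd with h1 | h1
      · exact Subgroup.card_eq_one.mp h1
      · exfalso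
        have e1 : Subgroup.zpowers h ⊓ Subgroup.zpowers (z' : Q) = Subgroup.zpowers h :=
          Subgroup.eq_of_le_of_card_ge inf_le_left (by rw [hH, h1])
        have e2 : Subgroup.zpowers h ⊓ Subgroup.zpowers (z' : Q) = Subgroup.zpowers (z' : Q) :=
          Subgroup.eq_of_le_of_card_ge inf_le_right (by rw [hZc, h1])
        exact hne (e1.symm.trans e2)
    have hcomm : ∀ a ∈ Subgroup.zpowers h, ∀ b ∈ Subgroup.zpowers (z' : Q), a * b = b * a := by
      rintro a - _ ⟨j, rfl⟩
      have hc : Commute a (z' : Q) := hzc a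
      exact (hc.zpow_right j).eq
    have hA : Cfsg.IsElementaryAbelian p (Subgroup.zpowers h ⊔ Subgroup.zpowers (z' : Q)) :=
      Cfsg.Agent.Lib.Helper10.isElementaryAbelian_sup
        (Cfsg.Agent.Lib.Helper10.isElementaryAbelian_zpowers
          (by rw [← hh]; exact pow_orderOf_eq_one h))
        (Cfsg.Agent.Lib.Helper10.isElementaryAbelian_zpowers
          (by rw [← hz]; exact pow_orderOf_eq_one _)) hcomm
    have h1 := card_mul_card_le_card_sup_mul_card_inf (Subgroup.zpowers h)
      (Subgroup.zpowers (z' : Q))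
    rw [hinf, Subgroup.card_bot, mul_one, hH, hZc] at h1
    have h2 := hno _ hA
    rw [pow_two] at h2
    omega
  rw [key H hH, key K hK]

/-- A `p`-solvable group of order divisible by `p` has normal subgroups `K ≤ L` with `K` a
`p'`-group and `L/K` a nontrivial `p`-group. -/
theorem exists_pprime_p_step {G : Type*} [Group G] [Finite G] {p : ℕ} [Fact p.Prime]
    (hsol : Cfsg.IsPSolvable p G) (hdiv : p ∣ Nat.card G) :
    ∃ K L : Subgroup G, K.Normal ∧ L.Normal ∧ K ≤ L ∧ ¬ p ∣ Nat.card K ∧ p ∣ Nat.card L ∧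
      ∃ m : ℕ, K.relIndex L = p ^ m := by
  have hpP : p.Prime := Fact.out
  obtain ⟨n, H, h0, hlast, hmono, hnorm, hstep⟩ := hsol
  have key : ∀ i : Fin (n + 1), p ∣ Nat.card (H i) →
      ∃ K L : Subgroup G, K.Normal ∧ L.Normal ∧ K ≤ L ∧ ¬ p ∣ Nat.card K ∧ p ∣ Nat.card L ∧
        ∃ m : ℕ, K.relIndex L = p ^ m := by
    intro i
    induction i using Fin.induction with
    | zero =>
      intro h
      rw [h0, Subgroup.card_bot] at h
      exact absurd (Nat.dvd_one.mp h) hpP.one_lt.ne'
    | succ i ih =>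
      intro h
      by_cases hi : p ∣ Nat.card (H i.castSucc)
      · exact ih hi
      · have hle : H i.castSucc ≤ H i.succ := hmono (le_of_lt Fin.castSucc_lt_succ)
        refine ⟨H i.castSucc, H i.succ, hnorm _, hnorm _, hle, hi, h, ?_⟩
        rcases hstep i with hm | hc
        · exact hm
        · exfalso
          have h1 := relIndex_mul_card_inf (H i.castSucc) (H i.succ)
          rw [inf_of_le_left hle] at h1
          rw [← h1] at h
          rcases hpP.dvd_mul.mp h with h2 | h2
          · exact (hpP.coprime_iff_not_dvd.mp hc.symm) h2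
          · exact hi h2
  apply key (Fin.last n)
  rw [hlast, Subgroup.card_top]
  exact hdiv

/-- A `p`-solvable group with a classical strongly `p`-embedded subgroup `H` containing the
Sylow subgroup `P`: `P` has no elementary abelian subgroup of order at least `p²`. -/
theorem no_rank_two_of_spe {G : Type*} [Group G] [Finite G] {p : ℕ} [Fact p.Prime]
    (hsol : Cfsg.IsPSolvable p G) (hdiv : p ∣ Nat.card G) (P : Sylow p G) {H : Subgroup G}
    (hse : ∀ g : G, g ∉ H → ¬ p ∣ Nat.card ↥(H ⊓ H.map (MulAut.conj g).toMonoidHom))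
    (hPH : (P : Subgroup G) ≤ H) (hHtop : H ≠ ⊤) :
    ∀ A : Subgroup G, A ≤ (P : Subgroup G) → Cfsg.IsElementaryAbelian p A →
      Nat.card A < p ^ 2 := by
  classical
  have hpP : p.Prime := Fact.out
  intro A hAP hA
  by_contra hA2
  rw [not_lt] at hA2
  obtain ⟨K, L, hKn, hLn, hKL, hpK, hpL, m, hm⟩ := exists_pprime_p_step hsol hdiv
  have hKH : K ≤ H := by
    apply spe_le_of_elemAb hse A K hA hA2 (hAP.trans hPH) hpK
    rw [Subgroup.normalizer_eq_top]
    exact le_top
  -- `Q = P ∩ L`
  have hQdvd : p ∣ Nat.card ↥((P : Subgroup G) ⊓ L) := by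
    have h1 := relIndex_mul_card_inf (P : Subgroup G) L
    have h2 := not_dvd_relIndex_normal P L
    rw [← h1] at hpL
    exact (hpP.dvd_mul.mp hpL).resolve_left h2
  obtain ⟨a, ha', haP, haL⟩ : ∃ a : G, orderOf a = p ∧ a ∈ (P : Subgroup G) ∧ a ∈ L := by
    obtain ⟨a', ha'⟩ := exists_prime_orderOf_dvd_card' (G := ↥((P : Subgroup G) ⊓ L)) p hQdvd
    exact ⟨a', by rw [Subgroup.orderOf_coe]; exact ha', (Subgroup.mem_inf.mp a'.2).1,
      (Subgroup.mem_inf.mp a'.2).2⟩
  have hNQ : Subgroup.normalizer (((P : Subgroup G) ⊓ L : Subgroup G) : Set G) ≤ H := by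
    intro g hg
    have h1 : g * a * g⁻¹ ∈ (P : Subgroup G) ⊓ L :=
      (Subgroup.mem_normalizer_iff.mp hg a).mp (Subgroup.mem_inf.mpr ⟨haP, haL⟩)
    exact spe_mem_of_conj_mem hse (hPH haP) ha' (hPH (Subgroup.mem_inf.mp h1).1)
  have hfrat : Subgroup.normalizer (((P : Subgroup G) ⊓ L : Subgroup G) : Set G) ⊔ L = ⊤ := by
    have h1 := Sylow.normalizer_sup_eq_top (sylowInfNormal P L)
    rw [sylowInfNormal_map] at h1
    exact h1
  -- `L = K (P ∩ L)`
  have hinf : K ⊓ ((P : Subgroup G) ⊓ L) = ⊥ := by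
    have hp : IsPGroup p ↥(K ⊓ ((P : Subgroup G) ⊓ L)) :=
      P.isPGroup'.to_le (inf_le_right.trans inf_le_left)
    rcases hp.card_eq_or_dvd with h1 | h1
    · exact Subgroup.card_eq_one.mp h1
    · exact absurd (h1.trans (Subgroup.card_dvd_of_le inf_le_left)) hpK
  have hcardL : p ^ m * Nat.card K = Nat.card L := by
    have h1 := relIndex_mul_card_inf K L
    rw [inf_of_le_left hKL, hm] at h1
    exact h1
  have hQge : p ^ m ≤ Nat.card ↥((P : Subgroup G) ⊓ L) := by
    have h1 := relIndex_mul_card_inf (P : Subgroup G) L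
    have h2 := not_dvd_relIndex_normal P L
    have h3 : p ^ m ∣ (P : Subgroup G).relIndex L * Nat.card ↥((P : Subgroup G) ⊓ L) := by
      rw [h1, ← hcardL]
      exact dvd_mul_right _ _
    have hcop : Nat.Coprime (p ^ m) ((P : Subgroup G).relIndex L) :=
      Nat.Coprime.pow_left m (hpP.coprime_iff_not_dvd.mpr h2)
    exact Nat.le_of_dvd Nat.card_pos (hcop.dvd_of_dvd_mul_left h3)
  have hLle : L ≤ K ⊔ ((P : Subgroup G) ⊓ L) := by
    have hle : K ⊔ ((P : Subgroup G) ⊓ L) ≤ L := sup_le hKL inf_le_right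
    have h1 := card_mul_card_le_card_sup_mul_card_inf K ((P : Subgroup G) ⊓ L)
    rw [hinf, Subgroup.card_bot, mul_one] at h1
    have h2 : Nat.card L ≤ Nat.card ↥(K ⊔ ((P : Subgroup G) ⊓ L)) := by
      calc Nat.card L = p ^ m * Nat.card K := hcardL.symm
        _ ≤ Nat.card ↥((P : Subgroup G) ⊓ L) * Nat.card K := Nat.mul_le_mul_right _ hQge
        _ = Nat.card K * Nat.card ↥((P : Subgroup G) ⊓ L) := Nat.mul_comm _ _
        _ ≤ _ := h1
    exact (Subgroup.eq_of_le_of_card_ge hle h2).ge
  apply hHtop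
  rw [eq_top_iff, ← hfrat]
  exact sup_le hNQ (hLle.trans (sup_le hKH (inf_le_left.trans hPH)))

/-- If `O_p(G) = 1` and a Sylow `p`-subgroup has a unique subgroup of order `p`, the Sylow
graph is disconnected. -/
theorem not_conn_of_unique_card_prime {G : Type*} [Group G] [Finite G] {p : ℕ} [Fact p.Prime]
    (hdiv : p ∣ Nat.card G) (hcore : Cfsg.pCore p G = ⊥) (P : Sylow p G)
    (huniq : ∀ H K : Subgroup ↥(P : Subgroup G), Nat.card H = p → Nat.card K = p → H = K) :
    ¬ ∀ S T : Sylow p G, ReflTransGen (sylAdj p) S T := by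
  classical
  have hpP : p.Prime := Fact.out
  intro hall
  have hUP : ∀ u v : G, u ∈ (P : Subgroup G) → v ∈ (P : Subgroup G) → orderOf u = p →
      orderOf v = p → v ∈ Subgroup.zpowers u := by
    intro u v hu hv hou hov
    have h1 := huniq (Subgroup.zpowers (⟨u, hu⟩ : ↥(P : Subgroup G)))
      (Subgroup.zpowers (⟨v, hv⟩ : ↥(P : Subgroup G)))
      (by rw [Nat.card_zpowers, Subgroup.orderOf_mk, hou])
      (by rw [Nat.card_zpowers, Subgroup.orderOf_mk, hov])
    have h2 : (⟨v, hv⟩ : ↥(P : Subgroup G)) ∈ Subgroup.zpowers (⟨u, hu⟩ : ↥(P : Subgroup G)) := by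
      rw [h1]
      exact Subgroup.mem_zpowers _
    obtain ⟨j, hj⟩ := h2
    refine ⟨j, ?_⟩
    have h3 := congrArg Subtype.val hj
    simpa using h3
  have hUS : ∀ S : Sylow p G, ∀ u v : G, u ∈ (S : Subgroup G) → v ∈ (S : Subgroup G) →
      orderOf u = p → orderOf v = p → v ∈ Subgroup.zpowers u := by
    intro S u v hu hv hou hov
    obtain ⟨g, rfl⟩ := MulAction.exists_smul_eq G P S
    have hu' : u ∈ (g • P : Sylow p G) := hu
    have hv' : v ∈ (g • P : Sylow p G) := hv
    rw [sylow_mem_smul] at hu' hv'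
    have hord : ∀ w : G, orderOf (g⁻¹ * w * g) = orderOf w := by
      intro w
      have h1 := orderOf_injective (MulAut.conj g⁻¹).toMonoidHom (MulAut.conj g⁻¹).injective w
      simpa [MulAut.conj_apply] using h1
    obtain ⟨j, hj⟩ := hUP _ _ hu' hv' ((hord u).trans hou) ((hord v).trans hov)
    refine ⟨j, ?_⟩
    have h2 : (g⁻¹ * u * g) ^ j = g⁻¹ * u ^ j * g := by
      have h3 := conj_zpow (i := j) (a := g⁻¹) (b := u)
      rw [inv_inv] at h3
      exact h3
    have hj' : g⁻¹ * u ^ j * g = g⁻¹ * v * g := by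
      rw [← h2]
      exact hj
    have h4 := congrArg (fun t => g * t * g⁻¹) hj'
    simpa [mul_assoc] using h4
  obtain ⟨z, hz, hzP⟩ : ∃ z : G, orderOf z = p ∧ z ∈ (P : Subgroup G) := by
    obtain ⟨z', hz'⟩ := exists_prime_orderOf_dvd_card' (G := ↥(P : Subgroup G)) p
      (P.dvd_card_of_dvd_card hdiv)
    exact ⟨z', by rw [Subgroup.orderOf_coe]; exact hz', z'.2⟩
  have hzall : ∀ T : Sylow p G, z ∈ (T : Subgroup G) := by
    intro T
    have hc := hall P T
    induction hc with
    | refl => exact hzP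
    | @tail S T _ hadj ih =>
      have hp : IsPGroup p ↥((S : Subgroup G) ⊓ (T : Subgroup G)) := S.isPGroup'.to_le inf_le_left
      have hdvd : p ∣ Nat.card ↥((S : Subgroup G) ⊓ (T : Subgroup G)) := by
        rcases hp.card_eq_or_dvd with h1 | h1
        · exact absurd (Subgroup.card_eq_one.mp h1) hadj.2
        · exact h1
      obtain ⟨w', hw'⟩ := exists_prime_orderOf_dvd_card'
        (G := ↥((S : Subgroup G) ⊓ (T : Subgroup G))) p hdvd
      have hw : orderOf (w' : G) = p := by rw [Subgroup.orderOf_coe]; exact hw'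
      have hwS : (w' : G) ∈ (S : Subgroup G) := (Subgroup.mem_inf.mp w'.2).1
      have hwT : (w' : G) ∈ (T : Subgroup G) := (Subgroup.mem_inf.mp w'.2).2
      have h1 := hUS S (w' : G) z hwS ih hw hz
      exact (Subgroup.zpowers_le.mpr hwT) h1
  have hncl : Subgroup.normalClosure ({z} : Set G) ≤ (P : Subgroup G) := by
    show Subgroup.closure (Group.conjugatesOfSet ({z} : Set G)) ≤ (P : Subgroup G)
    rw [Subgroup.closure_le]
    intro y hy
    rw [Group.mem_conjugatesOfSet_iff] at hy
    obtain ⟨b, hb, hby⟩ := hy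
    rw [Set.mem_singleton_iff] at hb
    subst hb
    obtain ⟨c, rfl⟩ := isConj_iff.mp hby
    have h1 : b ∈ (c⁻¹ • P : Sylow p G) := hzall _
    rw [sylow_mem_smul, inv_inv] at h1
    exact h1
  have hle : Subgroup.normalClosure ({z} : Set G) ≤ Cfsg.pCore p G := by
    unfold Cfsg.pCore
    exact le_sSup ⟨Subgroup.normalClosure_normal, P.isPGroup'.to_le hncl⟩
  rw [hcore] at hle
  have hz1 : z = 1 := by
    have := hle (Subgroup.subset_normalClosure (Set.mem_singleton z))
    exact Subgroup.mem_bot.mp this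
  rw [hz1, orderOf_one] at hz
  exact hpP.one_lt.ne' hz.symm

/-- A finite cyclic group has at most one subgroup of each prime order. -/
theorem unique_card_prime_of_isCyclic {Q : Type*} [Group Q] [Finite Q] [IsCyclic Q] (p : ℕ) :
    ∀ H K : Subgroup Q, Nat.card H = p → Nat.card K = p → H = K := by
  intro H K hH hK
  have hle : H ≤ K := by
    intro h hh
    apply Cfsg.Agent.S0016.mem_of_pow_card_eq_one K h
    rw [hK, ← hH]
    have h1 : (⟨h, hh⟩ : ↥H) ^ Nat.card H = 1 := pow_card_eq_one'
    have h2 := congrArg Subtype.val h1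
    rw [Subgroup.coe_pow, Subgroup.coe_one] at h2
    exact h2
  exact Subgroup.eq_of_le_of_card_ge hle (by rw [hH, hK])

/-- The generalized quaternion groups have a unique subgroup of order `2`. -/
theorem unique_card_two_quaternionGroup (m : ℕ) [NeZero m] :
    ∀ H K : Subgroup (QuaternionGroup m), Nat.card H = 2 → Nat.card K = 2 → H = K := by
  have : Fact (Nat.Prime 2) := ⟨Nat.prime_two⟩
  have key : ∀ h : QuaternionGroup m, orderOf h = 2 → h = QuaternionGroup.a (m : ZMod (2 * m)) := by
    intro h hh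
    cases h with
    | a i =>
      have h1 : QuaternionGroup.a i * QuaternionGroup.a i = 1 := by
        rw [← pow_two, ← hh]
        exact pow_orderOf_eq_one _
      rw [QuaternionGroup.a_mul_a, QuaternionGroup.one_def] at h1
      have h2 : i + i = 0 := by
        injection h1
      have hne : i ≠ 0 := by
        rintro rfl
        rw [← QuaternionGroup.one_def, orderOf_one] at hh
        omega
      have h3 : ((2 * i.val : ℕ) : ZMod (2 * m)) = 0 := by
        have e : ((i.val : ℕ) : ZMod (2 * m)) = i := ZMod.natCast_zmod_val i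
        rw [Nat.cast_mul, e, Nat.cast_ofNat]
        exact (two_mul i).trans h2
      rw [ZMod.natCast_eq_zero_iff] at h3
      have h4 : m ∣ i.val := (Nat.mul_dvd_mul_iff_left (by norm_num : 0 < 2)).mp h3
      have h5 : i.val < 2 * m := ZMod.val_lt i
      obtain ⟨c, hc⟩ := h4
      have hmpos : 0 < m := Nat.pos_of_ne_zero (NeZero.ne m)
      have hc1 : c = 1 := by
        have hc0 : c ≠ 0 := by
          rintro rfl
          apply hne
          rw [← ZMod.natCast_zmod_val i, hc]
          simp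
        have hc2 : c < 2 := by
          by_contra hcon
          rw [not_lt] at hcon
          have : 2 * m ≤ m * c := by
            calc 2 * m = m * 2 := Nat.mul_comm _ _
              _ ≤ m * c := Nat.mul_le_mul_left _ hcon
          omega
        omega
      rw [hc1, mul_one] at hc
      congr 1
      rw [← ZMod.natCast_zmod_val i, hc]
    | xa i =>
      rw [QuaternionGroup.orderOf_xa] at hh
      omega
  intro H K hH hK
  obtain ⟨h, hh, rfl⟩ := exists_eq_zpowers_of_card_prime (p := 2) H hH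
  obtain ⟨k, hk, rfl⟩ := exists_eq_zpowers_of_card_prime (p := 2) K hK
  rw [key h hh, key k hk]

end Cfsg.Agent.Lib.Helper51
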